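import Cfsg.Agent.H11.FF6
import Cfsg.Agent.H11.HolFF2

/-!
A coprime operator group `X` acting on the direct product of `SL(2, p)`'s arising from failure
of factorization.
-/

set_option autoImplicit false
set_option linter.unusedSectionVars false

namespace Cfsg.Agent.H11

open Cfsg
open scoped commutatorElement

section Fix

variable {G : Type*} [Group G] [Finite G]

/-- a `q`-group `X` fixes an element of an `X`-invariant coset `g N` when `q ∤ |N|` -/
theorem exists_fixed_coset {q : ℕ} [Fact q.Prime] {X N : Subgroup G} (hX : IsPGroup q X)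
    (hq : ¬ q ∣ Nat.card N) (hXN : X ≤ Subgroup.normalizer (N : Set G)) {g : G}
    (hg : ∀ x ∈ X, g⁻¹ * (x * g * x⁻¹) ∈ N) :
    ∃ n ∈ N, ∀ x ∈ X, x * (g * n) * x⁻¹ = g * n := by
  let α := {y : G // g⁻¹ * y ∈ N}
  let act : MulAction X α :=
    { smul := fun x y => ⟨(x : G) * y.1 * (x : G)⁻¹, by
        have h1 := hg x x.2
        have h2 := (Subgroup.mem_normalizer_iff.1 (hXN x.2) (g⁻¹ * y.1)).1 y.2
        have h3 : g⁻¹ * ((x : G) * y.1 * (x : G)⁻¹) =
            (g⁻¹ * ((x : G) * g * (x : G)⁻¹)) * ((x : G) * (g⁻¹ * y.1) * (x : G)⁻¹) := by group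
        rw [h3]
        exact mul_mem h1 h2⟩
      one_smul := fun y => Subtype.ext (by
        change ((1 : X) : G) * y.1 * ((1 : X) : G)⁻¹ = y.1
        simp)
      mul_smul := fun x z y => Subtype.ext (by
        change ((x * z : X) : G) * y.1 * ((x * z : X) : G)⁻¹ =
          (x : G) * ((z : G) * y.1 * (z : G)⁻¹) * (x : G)⁻¹
        rw [Subgroup.coe_mul]
        group) }
  have hcard : Nat.card α = Nat.card N :=
    Nat.card_congr
      { toFun := fun y => ⟨g⁻¹ * y.1, y.2⟩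
        invFun := fun n => ⟨g * n.1, by rw [inv_mul_cancel_left]; exact n.2⟩
        left_inv := fun y => Subtype.ext (mul_inv_cancel_left g y.1)
        right_inv := fun n => Subtype.ext (inv_mul_cancel_left g n.1) }
  obtain ⟨y, hy⟩ := hX.nonempty_fixed_point_of_prime_not_dvd_card α (by rw [hcard]; exact hq)
  refine ⟨g⁻¹ * y.1, y.2, ?_⟩
  intro x hx
  rw [mul_inv_cancel_left]
  exact congrArg Subtype.val (hy ⟨x, hx⟩)

/-- fixed points of a `q`-group modulo `q` -/
theorem card_modEq_fixed {q : ℕ} [Fact q.Prime] {X W : Subgroup G} (hX : IsPGroup q X)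
    (hXW : X ≤ Subgroup.normalizer (W : Set G)) :
    Nat.card W ≡ Nat.card ↥(W ⊓ Subgroup.centralizer (X : Set G)) [MOD q] := by
  let act : MulAction X W :=
    { smul := fun x y => ⟨(x : G) * y.1 * (x : G)⁻¹,
        (Subgroup.mem_normalizer_iff.1 (hXW x.2) y.1).1 y.2⟩
      one_smul := fun y => Subtype.ext (by
        change ((1 : X) : G) * y.1 * ((1 : X) : G)⁻¹ = y.1
        simp)
      mul_smul := fun x z y => Subtype.ext (by
        change ((x * z : X) : G) * y.1 * ((x * z : X) : G)⁻¹ =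
          (x : G) * ((z : G) * y.1 * (z : G)⁻¹) * (x : G)⁻¹
        rw [Subgroup.coe_mul]
        group) }
  have h1 := hX.card_modEq_card_fixedPoints W
  have h2 : Nat.card (MulAction.fixedPoints X W) =
      Nat.card ↥(W ⊓ Subgroup.centralizer (X : Set G)) :=
    Nat.card_congr
      { toFun := fun y => ⟨y.1.1, Subgroup.mem_inf.2 ⟨y.1.2, by
          rw [Subgroup.mem_centralizer_iff]
          intro x hx
          have h3 : x * y.1.1 * x⁻¹ = y.1.1 := congrArg Subtype.val (y.2 ⟨x, hx⟩)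
          calc x * y.1.1 = (x * y.1.1 * x⁻¹) * x := by group
            _ = y.1.1 * x := by rw [h3]⟩⟩
        invFun := fun y => ⟨⟨y.1, (Subgroup.mem_inf.1 y.2).1⟩, by
          intro x
          apply Subtype.ext
          change (x : G) * y.1 * (x : G)⁻¹ = y.1
          rw [Subgroup.mem_centralizer_iff.1 (Subgroup.mem_inf.1 y.2).2 x x.2,
            mul_inv_cancel_right]⟩
        left_inv := fun y => rfl
        right_inv := fun y => rfl }
  rw [← h2]
  exact h1

end Fix

section Small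

open Matrix

theorem sl2_a : ∃ g : SpecialLinearGroup (Fin 2) (ZMod 2), g ^ 2 = 1 ∧ g ≠ 1 :=
  ⟨⟨!![1, 1; 0, 1], by decide⟩, by decide, by
    intro h
    have := congrArg Subtype.val h
    revert this
    decide⟩

theorem sl2_b : ∃ g : SpecialLinearGroup (Fin 2) (ZMod 2), g ^ 3 = 1 ∧ g ≠ 1 :=
  ⟨⟨!![0, 1; 1, 1], by decide⟩, by decide, by
    intro h
    have := congrArg Subtype.val h
    revert this
    decide⟩

theorem sl2_c : ∃ g : SpecialLinearGroup (Fin 2) (ZMod 3), g ^ 2 = 1 ∧ g ≠ 1 :=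
  ⟨⟨!![-1, 0; 0, -1], by decide⟩, by decide, by
    intro h
    have := congrArg Subtype.val h
    revert this
    decide⟩

theorem sl2_d : ∃ g : SpecialLinearGroup (Fin 2) (ZMod 3), g ^ 3 = 1 ∧ g ≠ 1 :=
  ⟨⟨!![1, 1; 0, 1], by decide⟩, by decide, by
    intro h
    have := congrArg Subtype.val h
    revert this
    decide⟩

end Small

section Cop

variable {G : Type*} [Group G] [Finite G] {p q : ℕ} [hp : Fact p.Prime] [hqf : Fact q.Prime]
  {V H Q X : Subgroup G}

/-- a coprime operator `q`-group -/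
structure Cop (q : ℕ) (V H Q X : Subgroup G) : Prop where
  hXV : X ≤ Subgroup.normalizer (V : Set G)
  hXH : X ≤ Subgroup.normalizer (H : Set G)
  hXQ : X ≤ Subgroup.normalizer (Q : Set G)
  hX : IsPGroup q X
  hqH : ¬ q ∣ Nat.card H
  hqV : ¬ q ∣ Nat.card V

theorem IsTv.conjX {A : Subgroup G} (hA : IsTv p V H A) {x : G}
    (hxV : x ∈ Subgroup.normalizer (V : Set G)) (hxH : x ∈ Subgroup.normalizer (H : Set G)) :
    IsTv p V H (A.map (MulAut.conj x).toMonoidHom) := by
  refine ⟨?_, ?_, ?_⟩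
  · rintro _ ⟨a, ha, rfl⟩
    exact (Subgroup.mem_normalizer_iff.1 hxH a).1 (hA.le ha)
  · rw [card_map_conj, hA.card]
  · unfold H11.msr
    rw [← map_conj_inf_centralizer hxV, card_map_conj, card_map_conj]
    exact hA.msr

theorem EE_conjX (A : Subgroup G) {x : G} (hxQ : x ∈ Subgroup.normalizer (Q : Set G)) :
    EE Q (A.map (MulAut.conj x).toMonoidHom) = (EE Q A).map (MulAut.conj x).toMonoidHom := by
  unfold EE
  rw [Subgroup.map_sup, map_conj_commutator hxQ]

theorem W_conjX (E : Subgroup G) {x : G} (hxV : x ∈ Subgroup.normalizer (V : Set G)) :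
    ⁅V, E.map (MulAut.conj x).toMonoidHom⁆ = (⁅V, E⁆).map (MulAut.conj x).toMonoidHom := by
  rw [map_conj_commutator hxV]

/-- `q ≥ 5` -/
theorem Cop.five_le (S : Setup p V H Q) (C : Cop q V H Q X) {A : Subgroup G}
    (hA : IsTv p V H A) : 5 ≤ q := by
  obtain ⟨x, hx, hxA⟩ := hA.exists_not_comm S
  have hA' := hA.conj S (S.hQH hx)
  have h23 := S.prime_le_three hA hx hxA
  obtain ⟨f, -⟩ := S.pair_sl2 hA hA' (S.ne_bot_of_conj hA.le hx hxA)
  have hle : A ⊔ A.map (MulAut.conj x).toMonoidHom ≤ H := sup_le hA.le hA'.le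
  have hd : ∀ (r : ℕ) (_ : r.Prime) (g : Matrix.SpecialLinearGroup (Fin 2) (ZMod p)), g ^ r = 1 →
      g ≠ 1 → r ∣ Nat.card H := by
    intro r hr g hg hg1
    have h1 : orderOf (f.symm g) = r := by
      have : Fact r.Prime := ⟨hr⟩
      rw [MulEquiv.orderOf_eq]
      exact orderOf_eq_prime hg hg1
    have h2 := orderOf_dvd_natCard (f.symm g)
    rw [h1] at h2
    exact h2.trans (Subgroup.card_dvd_of_le hle)
  have h2 : 2 ∣ Nat.card H := by
    rcases h23 with rfl | rfl
    · obtain ⟨g, h1, h2⟩ := sl2_a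
      exact hd 2 Nat.prime_two g h1 h2
    · obtain ⟨g, h1, h2⟩ := sl2_c
      exact hd 2 Nat.prime_two g h1 h2
  have h3 : 3 ∣ Nat.card H := by
    rcases h23 with rfl | rfl
    · obtain ⟨g, h1, h2⟩ := sl2_b
      exact hd 3 Nat.prime_three g h1 h2
    · obtain ⟨g, h1, h2⟩ := sl2_d
      exact hd 3 Nat.prime_three g h1 h2
  have hq2 := hqf.out.two_le
  by_contra hlt
  push Not at hlt
  interval_cases q
  · exact C.hqH h2
  · exact C.hqH h3
  · exact absurd hqf.out (by decide)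

/-- an operator normalizing `E` centralizes `W = [V, E]` and `E` -/
theorem Cop.stab (S : Setup p V H Q) (C : Cop q V H Q X) {A : Subgroup G}
    (hA : IsTv p V H A) {x : G} (hx : x ∈ X)
    (hxE : (EE Q A).map (MulAut.conj x).toMonoidHom = EE Q A) :
    (∀ w ∈ ⁅V, EE Q A⁆, x * w = w * x) ∧ ∀ e ∈ EE Q A, x * e * x⁻¹ = e := by
  have h5 := C.five_le S hA
  obtain ⟨y, hy, hyA⟩ := hA.exists_not_comm S
  have h23 := S.prime_le_three hA hy hyA
  have P := hA.pairEE S
  set W := ⁅V, EE Q A⁆ with hW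
  have hxW : W.map (MulAut.conj x).toMonoidHom = W := by
    rw [hW, ← W_conjX _ (C.hXV hx), hxE]
  have hxn : x ∈ Subgroup.normalizer (W : Set G) := by
    rw [Subgroup.mem_normalizer_iff]
    intro w
    have h1 : x * w * x⁻¹ ∈ W.map (MulAut.conj x).toMonoidHom ↔ w ∈ W := by
      rw [mem_map_conj]
      have : x⁻¹ * (x * w * x⁻¹) * x = w := by group
      rw [this]
    rw [hxW] at h1
    exact h1.symm
  have hZ : IsPGroup q (Subgroup.zpowers x) := C.hX.to_le (by rwa [Subgroup.zpowers_le])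
  have hm := card_modEq_fixed hZ (W := W) (by rwa [Subgroup.zpowers_le])
  have hall : W ⊓ Subgroup.centralizer ((Subgroup.zpowers x : Subgroup G) : Set G) = W := by
    have hdvd : Nat.card ↥(W ⊓ Subgroup.centralizer ((Subgroup.zpowers x : Subgroup G) : Set G)) ∣
        p ^ 2 := by
      rw [← P.card]
      exact Subgroup.card_dvd_of_le inf_le_left
    rw [P.card] at hm
    obtain ⟨k, hk, hk'⟩ := (Nat.dvd_prime_pow hp.out).1 hdvd
    apply Subgroup.eq_of_le_of_card_ge inf_le_left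
    rw [P.card, hk']
    rw [hk'] at hm
    have hk2 : k = 2 := by
      rcases h23 with rfl | rfl
      · interval_cases k
        · exfalso
          have := (Nat.modEq_iff_dvd' (by norm_num)).1 hm.symm
          have := Nat.le_of_dvd (by norm_num) this
          omega
        · exfalso
          have := (Nat.modEq_iff_dvd' (by norm_num)).1 hm.symm
          have := Nat.le_of_dvd (by norm_num) this
          omega
        · rfl
      · interval_cases k
        · exfalso
          have h := (Nat.modEq_iff_dvd' (by norm_num)).1 hm.symm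
          have h8 : q ∣ 2 ^ 3 := by simpa using h
          have := hqf.out.dvd_of_dvd_pow h8
          have := Nat.le_of_dvd (by norm_num) this
          omega
        · exfalso
          have h := (Nat.modEq_iff_dvd' (by norm_num)).1 hm.symm
          have h8 : q ∣ 2 * 3 := by simpa using h
          rcases hqf.out.dvd_mul.1 h8 with h9 | h9 <;>
          · have := Nat.le_of_dvd (by norm_num) h9
            omega
        · rfl
    rw [hk2]
  have hw : ∀ w ∈ W, x * w = w * x := by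
    intro w hw
    rw [← hall] at hw
    exact Subgroup.mem_centralizer_iff.1 (Subgroup.mem_inf.1 hw).2 x (Subgroup.mem_zpowers x)
  refine ⟨hw, fun e he => ?_⟩
  have hxe : x * e * x⁻¹ ∈ EE Q A := by
    rw [← hxE, mem_map_conj]
    have : x⁻¹ * (x * e * x⁻¹) * x = e := by group
    rwa [this]
  have h1 : x * e * x⁻¹ * e⁻¹ ∈ EE Q A ⊓ Subgroup.centralizer ((W : Subgroup G) : Set G) := by
    refine Subgroup.mem_inf.2 ⟨mul_mem hxe (inv_mem he), ?_⟩
    rw [mem_centralizer_iff'']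
    intro w hwW
    have hen : ∀ e ∈ EE Q A, ∀ w ∈ W, e * w * e⁻¹ ∈ W := fun e he w hw =>
      (Subgroup.mem_normalizer_iff.1 (Subgroup.normalizer_commutator_ge_right _ _ he) w).1 hw
    have e1 : e⁻¹ * w * e ∈ W := by simpa using hen e⁻¹ (inv_mem he) w hwW
    have e2 := hw _ e1
    have e3 := hw w hwW
    have e4 : x * e * x⁻¹ * e⁻¹ * w * (x * e * x⁻¹ * e⁻¹)⁻¹ = w := by
      have s1 : x * e * x⁻¹ * e⁻¹ * w * (x * e * x⁻¹ * e⁻¹)⁻¹ =
          x * e * (x⁻¹ * (e⁻¹ * w * e) * x) * e⁻¹ * x⁻¹ := by group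
      have s2 : x⁻¹ * (e⁻¹ * w * e) * x = e⁻¹ * w * e := by
        rw [mul_assoc, ← e2, inv_mul_cancel_left]
      rw [s1, s2]
      have s3 : x * e * (e⁻¹ * w * e) * e⁻¹ * x⁻¹ = x * w * x⁻¹ := by group
      rw [s3, e3, mul_inv_cancel_right]
    calc x * e * x⁻¹ * e⁻¹ * w = x * e * x⁻¹ * e⁻¹ * w * (x * e * x⁻¹ * e⁻¹)⁻¹ *
          (x * e * x⁻¹ * e⁻¹) := by group
      _ = w * (x * e * x⁻¹ * e⁻¹) := by rw [e4]
  rw [P.faithful, Subgroup.mem_bot] at h1
  exact mul_inv_eq_one.1 h1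

theorem Cop.E_ne (S : Setup p V H Q) (C : Cop q V H Q X) {A : Subgroup G}
    (hA : IsTv p V H A) {x y : G} (hx : x ∈ X) (hy : y ∈ X)
    (h : (EE Q A).map (MulAut.conj x).toMonoidHom ≠ (EE Q A).map (MulAut.conj y).toMonoidHom) :
    (⁅V, EE Q A⁆).map (MulAut.conj x).toMonoidHom ≤
      Subgroup.centralizer (((EE Q A).map (MulAut.conj y).toMonoidHom : Subgroup G) : Set G) := by
  have hAx := hA.conjX (C.hXV hx) (C.hXH hx)
  have hAy := hA.conjX (C.hXV hy) (C.hXH hy)
  rw [← EE_conjX A (C.hXQ hx), ← EE_conjX A (C.hXQ hy)] at h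
  have h1 : ⁅V, EE Q (A.map (MulAut.conj x).toMonoidHom)⁆ ⊓
      ⁅V, EE Q (A.map (MulAut.conj y).toMonoidHom)⁆ = ⊥ := by
    rcases hAx.EE_dichotomy S hAy with h2 | h2
    · exact h2
    · exact absurd h2 h
  have h3 := hAx.W_le_centralizer S hAy h1
  rw [EE_conjX A (C.hXQ hx), W_conjX _ (C.hXV hx), EE_conjX A (C.hXQ hy)] at h3
  exact h3.trans inf_le_right

theorem Cop.E_eq (S : Setup p V H Q) (C : Cop q V H Q X) {A : Subgroup G}
    (hA : IsTv p V H A) {x y : G} (hx : x ∈ X) (hy : y ∈ X)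
    (h : (EE Q A).map (MulAut.conj x).toMonoidHom = (EE Q A).map (MulAut.conj y).toMonoidHom) :
    (∀ w ∈ ⁅V, EE Q A⁆, x * w * x⁻¹ = y * w * y⁻¹) ∧
      ∀ e ∈ EE Q A, x * e * x⁻¹ = y * e * y⁻¹ := by
  have h1 : (EE Q A).map (MulAut.conj (y⁻¹ * x)).toMonoidHom = EE Q A := by
    ext z
    rw [mem_map_conj]
    have h2 : (y⁻¹ * x)⁻¹ * z * (y⁻¹ * x) = x⁻¹ * (y * z * y⁻¹) * x := by group
    rw [h2, ← mem_map_conj (A := EE Q A) (x := x), h, mem_map_conj]
    have h3 : y⁻¹ * (y * z * y⁻¹) * y = z := by group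
    rw [h3]
  obtain ⟨h2, h3⟩ := C.stab S hA (X.mul_mem (X.inv_mem hy) hx) h1
  constructor
  · intro w hw
    have := h2 w hw
    calc x * w * x⁻¹ = y * ((y⁻¹ * x) * w) * x⁻¹ := by group
      _ = y * (w * (y⁻¹ * x)) * x⁻¹ := by rw [this]
      _ = y * w * y⁻¹ := by group
  · intro e he
    have := h3 e he
    calc x * e * x⁻¹ = y * ((y⁻¹ * x) * e * (y⁻¹ * x)⁻¹) * y⁻¹ := by group
      _ = y * e * y⁻¹ := by rw [this]

/-- an `X`-fixed element of `H` with prescribed component -/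
theorem Cop.comp (S : Setup p V H Q) (C : Cop q V H Q X) {A : Subgroup G}
    (hA : IsTv p V H A) {e : G} (he : e ∈ EE Q A) :
    ∃ h ∈ H, (∀ x ∈ X, x * h * x⁻¹ = h) ∧ ∀ w ∈ ⁅V, EE Q A⁆, h * w * h⁻¹ = e * w * e⁻¹ := by
  classical
  set E := EE Q A with hE
  set W := ⁅V, E⁆ with hW
  have heW : ∀ e ∈ E, ∀ w ∈ W, e * w * e⁻¹ ∈ W := fun e he w hw =>
    (Subgroup.mem_normalizer_iff.1 (Subgroup.normalizer_commutator_ge_right _ _ he) w).1 hw
  have claim : ∀ T : Finset G, (∀ y ∈ T, y ∈ X) → ∃ h ∈ H,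
      (∀ x ∈ X, (∃ y ∈ T, E.map (MulAut.conj x).toMonoidHom = E.map (MulAut.conj y).toMonoidHom) →
        ∀ w ∈ W, h * (x * w * x⁻¹) * h⁻¹ = x * (e * w * e⁻¹) * x⁻¹) ∧
      (∀ x ∈ X, (∀ y ∈ T, E.map (MulAut.conj x).toMonoidHom ≠ E.map (MulAut.conj y).toMonoidHom) →
        ∀ w ∈ W, h * (x * w * x⁻¹) * h⁻¹ = x * w * x⁻¹) := by
    intro T
    induction T using Finset.induction_on with
    | empty =>
      intro _
      refine ⟨1, one_mem _, ?_, ?_⟩
      · rintro x _ ⟨y, hy, _⟩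
        exact absurd hy (Finset.notMem_empty y)
      · intro x _ _ w _
        simp
    | insert y T _ ih =>
      intro hT
      have hyX : y ∈ X := hT y (Finset.mem_insert_self _ _)
      obtain ⟨h, hh, h1, h2⟩ := ih (fun z hz => hT z (Finset.mem_insert_of_mem hz))
      by_cases hex : ∃ y' ∈ T, E.map (MulAut.conj y).toMonoidHom =
          E.map (MulAut.conj y').toMonoidHom
      · refine ⟨h, hh, ?_, ?_⟩
        · rintro x hx ⟨z, hz, hxz⟩
          apply h1 x hx
          rcases Finset.mem_insert.1 hz with rfl | hz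
          · obtain ⟨y', hy', hyy'⟩ := hex
            exact ⟨y', hy', hxz.trans hyy'⟩
          · exact ⟨z, hz, hxz⟩
        · intro x hx hxT
          exact h2 x hx (fun z hz => hxT z (Finset.mem_insert_of_mem hz))
      · push Not at hex
        have hye : y * e * y⁻¹ ∈ E.map (MulAut.conj y).toMonoidHom := ⟨e, he, rfl⟩
        have htriv : ∀ x ∈ X, E.map (MulAut.conj x).toMonoidHom ≠
            E.map (MulAut.conj y).toMonoidHom → ∀ w ∈ W,
            (y * e * y⁻¹) * (x * w * x⁻¹) * (y * e * y⁻¹)⁻¹ = x * w * x⁻¹ := by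
          intro x hx hne w hw
          have h3 := C.E_ne S hA hx hyX hne (show x * w * x⁻¹ ∈ _ from ⟨w, hw, rfl⟩)
          rw [Subgroup.mem_centralizer_iff] at h3
          rw [h3 _ hye, mul_inv_cancel_right]
        refine ⟨h * (y * e * y⁻¹), mul_mem hh ?_, ?_, ?_⟩
        · have hAy := hA.conjX (C.hXV hyX) (C.hXH hyX)
          have := hAy.EE_le S
          rw [EE_conjX A (C.hXQ hyX)] at this
          exact this hye
        · rintro x hx ⟨z, hz, hxz⟩ w hw
          have e0 : h * (y * e * y⁻¹) * (x * w * x⁻¹) * (h * (y * e * y⁻¹))⁻¹ =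
              h * ((y * e * y⁻¹) * (x * w * x⁻¹) * (y * e * y⁻¹)⁻¹) * h⁻¹ := by group
          rw [e0]
          rcases Finset.mem_insert.1 hz with rfl | hz
          · rw [← (C.E_eq S hA hx hyX hxz).2 e he]
            have e1 : (x * e * x⁻¹) * (x * w * x⁻¹) * (x * e * x⁻¹)⁻¹ =
                x * (e * w * e⁻¹) * x⁻¹ := by group
            rw [e1]
            apply h2 x hx _ _ (heW e he w hw)
            intro y' hy'
            rw [hxz]
            exact hex y' hy'
          · rw [htriv x hx _ w hw]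
            · exact h1 x hx ⟨z, hz, hxz⟩ w hw
            · intro hxy
              exact hex z hz (hxy.symm.trans hxz)
        · intro x hx hxT w hw
          have e0 : h * (y * e * y⁻¹) * (x * w * x⁻¹) * (h * (y * e * y⁻¹))⁻¹ =
              h * ((y * e * y⁻¹) * (x * w * x⁻¹) * (y * e * y⁻¹)⁻¹) * h⁻¹ := by group
          rw [e0, htriv x hx (hxT y (Finset.mem_insert_self _ _)) w hw]
          exact h2 x hx (fun z hz => hxT z (Finset.mem_insert_of_mem hz)) w hw
  obtain ⟨g, hgH, hg, -⟩ := claim (Set.toFinite (X : Set G)).toFinset (by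
    intro y hy; simpa using hy)
  have hg' : ∀ x ∈ X, ∀ w ∈ W, g * (x * w * x⁻¹) * g⁻¹ = x * (e * w * e⁻¹) * x⁻¹ := by
    intro x hx w hw
    exact hg x hx ⟨x, by simpa using hx, rfl⟩ w hw
  set N : Subgroup G := H ⊓ Subgroup.centralizer {v : G | ∃ x ∈ X, ∃ w ∈ W, v = x * w * x⁻¹}
    with hN
  have hmemN : ∀ n ∈ H, (∀ x ∈ X, ∀ w ∈ W, n * (x * w * x⁻¹) * n⁻¹ = x * w * x⁻¹) → n ∈ N := by
    intro n hn h
    refine Subgroup.mem_inf.2 ⟨hn, ?_⟩
    rw [Subgroup.mem_centralizer_iff]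
    rintro _ ⟨x, hx, w, hw, rfl⟩
    have := h x hx w hw
    calc x * w * x⁻¹ * n = n * (x * w * x⁻¹) * n⁻¹ * n := by rw [this]
      _ = n * (x * w * x⁻¹) := by group
  have hNcomm : ∀ n ∈ N, ∀ x ∈ X, ∀ w ∈ W, n * (x * w * x⁻¹) * n⁻¹ = x * w * x⁻¹ := by
    intro n hn x hx w hw
    have := Subgroup.mem_centralizer_iff.1 (Subgroup.mem_inf.1 hn).2 _ ⟨x, hx, w, hw, rfl⟩
    rw [← this, mul_inv_cancel_right]
  have hXN : X ≤ Subgroup.normalizer (N : Set G) := by
    apply le_normalizer_of_conj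
    intro y hy n hn
    apply hmemN
    · exact (Subgroup.mem_normalizer_iff.1 (C.hXH hy) n).1 (Subgroup.mem_inf.1 hn).1
    · intro x hx w hw
      have h1 := hNcomm n hn (y⁻¹ * x) (X.mul_mem (X.inv_mem hy) hx) w hw
      have e1 : y * n * y⁻¹ * (x * w * x⁻¹) * (y * n * y⁻¹)⁻¹ =
          y * (n * ((y⁻¹ * x) * w * (y⁻¹ * x)⁻¹) * n⁻¹) * y⁻¹ := by group
      rw [e1, h1]
      group
  have hqN : ¬ q ∣ Nat.card N := fun h => C.hqH (h.trans (Subgroup.card_dvd_of_le inf_le_left))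
  obtain ⟨n, hn, hfix⟩ := exists_fixed_coset C.hX hqN hXN (g := g) (by
    intro y hy
    apply hmemN
    · exact mul_mem (inv_mem hgH) ((Subgroup.mem_normalizer_iff.1 (C.hXH hy) g).1 hgH)
    · intro x hx w hw
      have h1 := hg' (y⁻¹ * x) (X.mul_mem (X.inv_mem hy) hx) w hw
      have h2 := hg' x hx w hw
      have e1 : g⁻¹ * (y * g * y⁻¹) * (x * w * x⁻¹) * (g⁻¹ * (y * g * y⁻¹))⁻¹ =
          g⁻¹ * (y * (g * ((y⁻¹ * x) * w * (y⁻¹ * x)⁻¹) * g⁻¹) * y⁻¹) * g := by group
      rw [e1, h1]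
      have e2 : g⁻¹ * (y * (y⁻¹ * x * (e * w * e⁻¹) * (y⁻¹ * x)⁻¹) * y⁻¹) * g =
          g⁻¹ * (x * (e * w * e⁻¹) * x⁻¹) * g := by group
      rw [e2, ← h2]
      group)
  refine ⟨g * n, mul_mem hgH (Subgroup.mem_inf.1 hn).1, hfix, ?_⟩
  intro w hw
  have h1 := hNcomm n hn 1 (one_mem _) w hw
  have h2 := hg' 1 (one_mem _) w hw
  simp only [one_mul, inv_one, mul_one] at h1 h2
  have e1 : g * n * w * (g * n)⁻¹ = g * (n * w * n⁻¹) * g⁻¹ := by group
  rw [e1, h1, h2]

/-- the span of the `X`-conjugates of `W` -/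
def UU (V Q X A : Subgroup G) : Subgroup G :=
  ⨆ x : X, (⁅V, EE Q A⁆).map (MulAut.conj (x : G)).toMonoidHom

theorem le_UU {A : Subgroup G} {x w : G} (hx : x ∈ X) (hw : w ∈ ⁅V, EE Q A⁆) :
    x * w * x⁻¹ ∈ UU V Q X A :=
  le_iSup (fun x : X => (⁅V, EE Q A⁆).map (MulAut.conj (x : G)).toMonoidHom) ⟨x, hx⟩ ⟨w, hw, rfl⟩

theorem Cop.UU_le (S : Setup p V H Q) (C : Cop q V H Q X) {A : Subgroup G}
    (hA : IsTv p V H A) : UU V Q X A ≤ V := by
  refine iSup_le ?_
  rintro ⟨x, hx⟩ _ ⟨w, hw, rfl⟩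
  exact (Subgroup.mem_normalizer_iff.1 (C.hXV hx) w).1 (hA.W_le S hw)

theorem Cop.X_UU (A : Subgroup G) {x : G} (hx : x ∈ X) :
    (UU V Q X A).map (MulAut.conj x).toMonoidHom ≤ UU V Q X A := by
  unfold UU
  rw [Subgroup.map_iSup]
  refine iSup_le ?_
  rintro ⟨y, hy⟩ _ ⟨_, ⟨w, hw, rfl⟩, rfl⟩
  have h1 : (MulAut.conj x).toMonoidHom ((MulAut.conj y).toMonoidHom w) =
      (x * y) * w * (x * y)⁻¹ := by
    change x * (y * w * y⁻¹) * x⁻¹ = _
    group
  rw [h1]
  exact le_UU (X.mul_mem hx hy) hw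

/-- an `X`-fixed vector with prescribed component -/
theorem Cop.vec (S : Setup p V H Q) (C : Cop q V H Q X) {A : Subgroup G}
    (hA : IsTv p V H A) {w : G} (hw : w ∈ ⁅V, EE Q A⁆) :
    ∃ u ∈ UU V Q X A, (∀ x ∈ X, x * u * x⁻¹ = u) ∧
      u * w⁻¹ ∈ Subgroup.centralizer (EE Q A : Set G) := by
  classical
  have hVc := (comm_iff V).1 S.hV.1
  have hUV := C.UU_le S hA
  set U := UU V Q X A with hU
  set E := EE Q A with hE
  have claim : ∀ T : Finset G, (∀ y ∈ T, y ∈ X) → ∃ u ∈ U,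
      (∀ x ∈ X, (∃ y ∈ T, E.map (MulAut.conj x).toMonoidHom = E.map (MulAut.conj y).toMonoidHom) →
        u * (x * w * x⁻¹)⁻¹ ∈
          Subgroup.centralizer ((E.map (MulAut.conj x).toMonoidHom : Subgroup G) : Set G)) ∧
      (∀ x ∈ X, (∀ y ∈ T, E.map (MulAut.conj x).toMonoidHom ≠ E.map (MulAut.conj y).toMonoidHom) →
        u ∈ Subgroup.centralizer ((E.map (MulAut.conj x).toMonoidHom : Subgroup G) : Set G)) := by
    intro T
    induction T using Finset.induction_on with
    | empty =>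
      intro _
      refine ⟨1, one_mem _, ?_, ?_⟩
      · rintro x _ ⟨y, hy, _⟩
        exact absurd hy (Finset.notMem_empty y)
      · intro x _ _
        exact one_mem _
    | insert y T _ ih =>
      intro hT
      have hyX : y ∈ X := hT y (Finset.mem_insert_self _ _)
      obtain ⟨u, hu, h1, h2⟩ := ih (fun z hz => hT z (Finset.mem_insert_of_mem hz))
      by_cases hex : ∃ y' ∈ T, E.map (MulAut.conj y).toMonoidHom =
          E.map (MulAut.conj y').toMonoidHom
      · refine ⟨u, hu, ?_, ?_⟩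
        · rintro x hx ⟨z, hz, hxz⟩
          apply h1 x hx
          rcases Finset.mem_insert.1 hz with rfl | hz
          · obtain ⟨y', hy', hyy'⟩ := hex
            exact ⟨y', hy', hxz.trans hyy'⟩
          · exact ⟨z, hz, hxz⟩
        · intro x hx hxT
          exact h2 x hx (fun z hz => hxT z (Finset.mem_insert_of_mem hz))
      · push Not at hex
        have htriv : ∀ x ∈ X, E.map (MulAut.conj x).toMonoidHom ≠
            E.map (MulAut.conj y).toMonoidHom →
            y * w * y⁻¹ ∈ Subgroup.centralizer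
              ((E.map (MulAut.conj x).toMonoidHom : Subgroup G) : Set G) := by
          intro x hx hne
          exact C.E_ne S hA hyX hx hne.symm ⟨w, hw, rfl⟩
        refine ⟨u * (y * w * y⁻¹), mul_mem hu (le_UU hyX hw), ?_, ?_⟩
        · rintro x hx ⟨z, hz, hxz⟩
          rcases Finset.mem_insert.1 hz with rfl | hz
          · rw [← (C.E_eq S hA hx hyX hxz).1 w hw, mul_inv_cancel_right]
            apply h2 x hx
            intro y' hy'
            rw [hxz]
            exact hex y' hy'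
          · have e1 : u * (y * w * y⁻¹) * (x * w * x⁻¹)⁻¹ =
                u * (x * w * x⁻¹)⁻¹ * (y * w * y⁻¹) := by
              rw [mul_assoc u, mul_assoc u,
                hVc _ (hUV (le_UU hyX hw)) _ (inv_mem (hUV (le_UU hx hw)))]
            rw [e1]
            refine mul_mem (h1 x hx ⟨z, hz, hxz⟩) (htriv x hx ?_)
            intro hxy
            exact hex z hz (hxy.symm.trans hxz)
        · intro x hx hxT
          exact mul_mem (h2 x hx (fun z hz => hxT z (Finset.mem_insert_of_mem hz)))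
            (htriv x hx (hxT y (Finset.mem_insert_self _ _)))
  obtain ⟨g, hgU, hg, -⟩ := claim (Set.toFinite (X : Set G)).toFinset (by
    intro y hy; simpa using hy)
  have hg' : ∀ x ∈ X, g * (x * w * x⁻¹)⁻¹ ∈
      Subgroup.centralizer ((E.map (MulAut.conj x).toMonoidHom : Subgroup G) : Set G) := by
    intro x hx
    exact hg x hx ⟨x, by simpa using hx, rfl⟩
  set N : Subgroup G := U ⊓ Subgroup.centralizer {v : G | ∃ x ∈ X, ∃ e ∈ E, v = x * e * x⁻¹}
    with hN
  have hcz : ∀ (u : G) {x : G}, (∀ e ∈ E, (x * e * x⁻¹) * u = u * (x * e * x⁻¹)) ↔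
      u ∈ Subgroup.centralizer ((E.map (MulAut.conj x).toMonoidHom : Subgroup G) : Set G) := by
    intro u x
    rw [Subgroup.mem_centralizer_iff]
    constructor
    · rintro h _ ⟨e, he, rfl⟩
      exact h e he
    · intro h e he
      exact h _ ⟨e, he, rfl⟩
  have hmemN : ∀ n ∈ U, (∀ x ∈ X, n ∈
      Subgroup.centralizer ((E.map (MulAut.conj x).toMonoidHom : Subgroup G) : Set G)) → n ∈ N := by
    intro n hn h
    refine Subgroup.mem_inf.2 ⟨hn, ?_⟩
    rw [Subgroup.mem_centralizer_iff]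
    rintro _ ⟨x, hx, e, he, rfl⟩
    exact (hcz n).2 (h x hx) e he
  have hNcomm : ∀ n ∈ N, ∀ x ∈ X, n ∈
      Subgroup.centralizer ((E.map (MulAut.conj x).toMonoidHom : Subgroup G) : Set G) := by
    intro n hn x hx
    rw [← hcz]
    intro e he
    exact Subgroup.mem_centralizer_iff.1 (Subgroup.mem_inf.1 hn).2 _ ⟨x, hx, e, he, rfl⟩
  have hconj : ∀ y ∈ X, ∀ x ∈ X, ∀ n : G, n ∈ Subgroup.centralizer
      ((E.map (MulAut.conj (y⁻¹ * x)).toMonoidHom : Subgroup G) : Set G) →
      y * n * y⁻¹ ∈ Subgroup.centralizer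
        ((E.map (MulAut.conj x).toMonoidHom : Subgroup G) : Set G) := by
    intro y _ x _ n hn
    rw [← hcz] at hn ⊢
    intro e he
    have := hn e he
    calc x * e * x⁻¹ * (y * n * y⁻¹) = y * (y⁻¹ * x * e * (y⁻¹ * x)⁻¹ * n) * y⁻¹ := by group
      _ = y * (n * (y⁻¹ * x * e * (y⁻¹ * x)⁻¹)) * y⁻¹ := by rw [this]
      _ = y * n * y⁻¹ * (x * e * x⁻¹) := by group
  have hyU : ∀ y ∈ X, ∀ n ∈ U, y * n * y⁻¹ ∈ U := fun y hy n hn =>
    Cop.X_UU (V := V) (Q := Q) A hy ⟨n, hn, rfl⟩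
  have hXN : X ≤ Subgroup.normalizer (N : Set G) := by
    apply le_normalizer_of_conj
    intro y hy n hn
    apply hmemN _ (hyU y hy n (Subgroup.mem_inf.1 hn).1)
    intro x hx
    exact hconj y hy x hx n (hNcomm n hn _ (X.mul_mem (X.inv_mem hy) hx))
  have hqN : ¬ q ∣ Nat.card N := fun h =>
    C.hqV (h.trans (Subgroup.card_dvd_of_le (inf_le_left.trans hUV)))
  obtain ⟨n, hn, hfix⟩ := exists_fixed_coset C.hX hqN hXN (g := g) (by
    intro y hy
    apply hmemN _ (mul_mem (inv_mem hgU) (hyU y hy g hgU))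
    intro x hx
    have h1 := hconj y hy x hx _ (hg' (y⁻¹ * x) (X.mul_mem (X.inv_mem hy) hx))
    have h2 := hg' x hx
    have e1 : g⁻¹ * (y * g * y⁻¹) =
        (g * (x * w * x⁻¹)⁻¹)⁻¹ * (y * (g * (y⁻¹ * x * w * (y⁻¹ * x)⁻¹)⁻¹) * y⁻¹) := by
      have hxw := hUV (le_UU (X := X) hx hw)
      have hgV := hUV hgU
      have hyg := hUV (hyU y hy g hgU)
      have e2 : (g * (x * w * x⁻¹)⁻¹)⁻¹ * (y * (g * (y⁻¹ * x * w * (y⁻¹ * x)⁻¹)⁻¹) * y⁻¹) =
          (x * w * x⁻¹) * (g⁻¹ * (y * g * y⁻¹)) * (x * w * x⁻¹)⁻¹ := by group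
      rw [e2, hVc _ hxw _ (mul_mem (inv_mem hgV) hyg), mul_inv_cancel_right]
    rw [e1]
    exact mul_mem (inv_mem h2) h1)
  refine ⟨g * n, mul_mem hgU (Subgroup.mem_inf.1 hn).1, hfix, ?_⟩
  have h1 := hNcomm n hn 1 (one_mem _)
  have h2 := hg' 1 (one_mem _)
  have h3 : E.map (MulAut.conj (1 : G)).toMonoidHom = E := by
    ext z
    rw [mem_map_conj]
    simp
  rw [h3] at h1 h2
  simp only [one_mul, inv_one, mul_one] at h2
  have e1 : g * n * w⁻¹ = g * w⁻¹ * n := by
    rw [mul_assoc, mul_assoc]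
    congr 1
    exact hVc _ (hUV (Subgroup.mem_inf.1 hn).1) _ (inv_mem (hA.W_le S hw))
  rw [e1]
  exact mul_mem h2 h1

/-- no vector of `U` is fixed by all conjugates of `E` -/
theorem Cop.UU_inf (S : Setup p V H Q) (C : Cop q V H Q X) {A : Subgroup G}
    (hA : IsTv p V H A) {u : G} (hu : u ∈ UU V Q X A)
    (h : ∀ x ∈ X, u ∈ Subgroup.centralizer
      (((EE Q A).map (MulAut.conj x).toMonoidHom : Subgroup G) : Set G)) : u = 1 := by
  classical
  have claim : ∀ T : Finset G, (∀ y ∈ T, y ∈ X) →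
      ∀ u ∈ ⨆ y ∈ T, (⁅V, EE Q A⁆).map (MulAut.conj y).toMonoidHom,
      (∀ y ∈ T, u ∈ Subgroup.centralizer
        (((EE Q A).map (MulAut.conj y).toMonoidHom : Subgroup G) : Set G)) → u = 1 := by
    intro T
    induction T using Finset.induction_on with
    | empty =>
      intro _ u hu _
      simpa using hu
    | insert y T _ ih =>
      intro hT u hu hc
      have hyX : y ∈ X := hT y (Finset.mem_insert_self _ _)
      have hT' : ∀ z ∈ T, z ∈ X := fun z hz => hT z (Finset.mem_insert_of_mem hz)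
      rw [Finset.iSup_insert] at hu
      by_cases hex : ∃ y' ∈ T, (EE Q A).map (MulAut.conj y).toMonoidHom =
          (EE Q A).map (MulAut.conj y').toMonoidHom
      · obtain ⟨y', hy', hyy'⟩ := hex
        have h1 : (⁅V, EE Q A⁆).map (MulAut.conj y).toMonoidHom ≤
            ⨆ y ∈ T, (⁅V, EE Q A⁆).map (MulAut.conj y).toMonoidHom := by
          rw [← W_conjX _ (C.hXV hyX), hyy', W_conjX _ (C.hXV (hT' y' hy'))]
          exact le_iSup₂ (f := fun y (_ : y ∈ T) =>
            (⁅V, EE Q A⁆).map (MulAut.conj y).toMonoidHom) y' hy'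
        rw [sup_eq_right.2 h1] at hu
        exact ih hT' u hu (fun z hz => hc z (Finset.mem_insert_of_mem hz))
      · push Not at hex
        have h1 : (⨆ y ∈ T, (⁅V, EE Q A⁆).map (MulAut.conj y).toMonoidHom) ≤
            Subgroup.centralizer
              (((EE Q A).map (MulAut.conj y).toMonoidHom : Subgroup G) : Set G) := by
          refine iSup₂_le ?_
          intro z hz
          exact C.E_ne S hA (hT' z hz) hyX (hex z hz).symm
        have hWV : ∀ z ∈ X, (⁅V, EE Q A⁆).map (MulAut.conj z).toMonoidHom ≤ V := by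
          rintro z hz _ ⟨w, hw, rfl⟩
          exact (Subgroup.mem_normalizer_iff.1 (C.hXV hz) w).1 (hA.W_le S hw)
        have h2 : (⨆ y ∈ T, (⁅V, EE Q A⁆).map (MulAut.conj y).toMonoidHom) ≤ V :=
          iSup₂_le fun z hz => hWV z (hT' z hz)
        rw [mem_sup_of_le_normalizer (le_normalizer_of_comm S.hV.1 (hWV y hyX) h2)] at hu
        obtain ⟨w1, hw1, u', hu', rfl⟩ := hu
        have h3 := hc y (Finset.mem_insert_self _ _)
        have h4 : w1 = 1 := by
          have h5 : w1 ∈ Subgroup.centralizer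
              (((EE Q A).map (MulAut.conj y).toMonoidHom : Subgroup G) : Set G) := by
            have := mul_mem h3 (inv_mem (h1 hu'))
            rwa [mul_inv_cancel_right] at this
          have hAy := hA.conjX (C.hXV hyX) (C.hXH hyX)
          have h6 := (hAy.pairEE S).inf
          rw [EE_conjX A (C.hXQ hyX), W_conjX _ (C.hXV hyX)] at h6
          have : w1 ∈ (⊥ : Subgroup G) := by
            rw [← h6]
            exact Subgroup.mem_inf.2 ⟨hw1, h5⟩
          simpa using this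
        rw [h4, one_mul] at hc ⊢
        exact ih hT' u' hu' (fun z hz => hc z (Finset.mem_insert_of_mem hz))
  apply claim (Set.toFinite (X : Set G)).toFinset (by intro y hy; simpa using hy) u
  · refine (iSup_le ?_ : UU V Q X A ≤ _) hu
    rintro ⟨x, hx⟩
    exact le_iSup₂ (f := fun y (_ : y ∈ (Set.toFinite (X : Set G)).toFinset) =>
      (⁅V, EE Q A⁆).map (MulAut.conj y).toMonoidHom) x (by simpa using hx)
  · intro y hy
    exact h y (by simpa using hy)

end Cop

end Cfsg.Agent.H11
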