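import Mathlib
import Cfsg.Prelude.Def_CaseTheorems
import Cfsg.Prelude.Def_OddOrderLocal
import Cfsg.Agent.H1.PCon
import Cfsg.Agent.SigF.Gen
import Cfsg.Agent.SigF.Bal1
import Cfsg.Agent.H4.Final

set_option autoImplicit false
open Cfsg
open scoped commutatorElement Pointwise

/-! Early characteristic 2 type: cores of involution centralizers are trivial. -/

namespace Cfsg.Agent.H11.EarlyCT

open Cfsg.Agent.SigF.Bal1 H36.PConstr

universe u
set_option linter.unusedSectionVars false
variable {G : Type u} [Group G] [Finite G]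

/-- abbreviation for the core of the centralizer. -/
noncomputable abbrev Y (a : G) : Subgroup G := Cfsg.centralizerPPrimeCore 2 a

theorem zpowers_isPGroup {t : G} (ht : orderOf t = 2) : IsPGroup 2 (Subgroup.zpowers t) :=
  IsPGroup.of_card (n := 1) (by rw [Nat.card_zpowers, ht, pow_one])

theorem zpowers_ne_bot {t : G} (ht : orderOf t = 2) : Subgroup.zpowers t ≠ ⊥ := by
  rw [Ne, Subgroup.zpowers_eq_bot]
  rintro rfl
  rw [orderOf_one] at ht
  omega

theorem normalizer_zpowers {t : G} (ht : orderOf t = 2) :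
    Subgroup.normalizer ((Subgroup.zpowers t : Subgroup G) : Set G) = Subgroup.centralizer ({t} : Set G) := by
  apply le_antisymm
  · intro g hg
    rw [Subgroup.mem_centralizer_singleton_iff]
    have h1 : g * t * g⁻¹ ∈ Subgroup.zpowers t := (Subgroup.mem_normalizer_iff.1 hg t).1 (Subgroup.mem_zpowers t)
    obtain ⟨k, hk⟩ := Subgroup.mem_zpowers_iff.1 h1
    have h2 : t ^ k = 1 ∨ t ^ k = t := by
      rcases Int.even_or_odd' k with ⟨m, hm | hm⟩
      · left
        rw [hm, zpow_mul]
        have : t ^ (2 : ℤ) = 1 := by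
          have := pow_orderOf_eq_one t
          rw [ht] at this
          exact_mod_cast this
        rw [this, one_zpow]
      · right
        rw [hm, zpow_add, zpow_mul]
        have : t ^ (2 : ℤ) = 1 := by
          have := pow_orderOf_eq_one t
          rw [ht] at this
          exact_mod_cast this
        rw [this, one_zpow, one_mul, zpow_one]
    rcases h2 with h2 | h2
    · exfalso
      rw [h2] at hk
      have : t = 1 := by
        rw [eq_comm, mul_inv_eq_one, mul_eq_left] at hk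
        exact hk
      rw [this, orderOf_one] at ht
      omega
    · rw [h2] at hk
      rw [eq_mul_inv_iff_mul_eq] at hk
      exact hk.symm
  · rw [← zpowers_centralizer t]
    exact Subgroup.centralizer_le_normalizer _

theorem conj_Y (g a : G) : Y (g * a * g⁻¹) = (Y a).map (MulAut.conj g).toMonoidHom := by
  have key : ∀ g a : G, (Y a).map (MulAut.conj g).toMonoidHom ≤ Y (g * a * g⁻¹) := by
    intro g a
    apply le_cppc
    · rintro _ ⟨x, hx, rfl⟩
      have := cppc_le a hx
      rw [Subgroup.mem_centralizer_singleton_iff] at this ⊢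
      simp only [MulEquiv.toMonoidHom_eq_coe, MonoidHom.coe_coe, MulAut.conj_apply]
      calc g * x * g⁻¹ * (g * a * g⁻¹) = g * (x * a) * g⁻¹ := by group
        _ = g * (a * x) * g⁻¹ := by rw [this]
        _ = g * a * g⁻¹ * (g * x * g⁻¹) := by group
    · have hkey : ∀ c ∈ Subgroup.centralizer ({g * a * g⁻¹} : Set G), ∀ y ∈ (Y a).map (MulAut.conj g).toMonoidHom,
          c * y * c⁻¹ ∈ (Y a).map (MulAut.conj g).toMonoidHom := by
        rintro c hc _ ⟨x, hx, rfl⟩
        have hc' : g⁻¹ * c * g ∈ Subgroup.centralizer ({a} : Set G) := by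
          rw [Subgroup.mem_centralizer_singleton_iff] at hc ⊢
          calc g⁻¹ * c * g * a = g⁻¹ * (c * (g * a * g⁻¹)) * g := by group
            _ = g⁻¹ * ((g * a * g⁻¹) * c) * g := by rw [hc]
            _ = a * (g⁻¹ * c * g) := by group
        have h1 := (Subgroup.mem_normalizer_iff.1 (centralizer_le_normalizer_cppc a hc') x).1 hx
        refine ⟨_, h1, ?_⟩
        simp only [MulEquiv.toMonoidHom_eq_coe, MonoidHom.coe_coe, MulAut.conj_apply]
        group
      intro c hc
      rw [Subgroup.mem_normalizer_iff]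
      intro y
      refine ⟨hkey c hc y, fun h => ?_⟩
      have := hkey c⁻¹ (inv_mem hc) _ h
      have e : c⁻¹ * (c * y * c⁻¹) * c⁻¹⁻¹ = y := by group
      rwa [e] at this
    · rw [Subgroup.card_map_of_injective (MulAut.conj g).injective]
      exact cppc_coprime a
  apply le_antisymm _ (key g a)
  have h := key g⁻¹ (g * a * g⁻¹)
  have e : g⁻¹ * (g * a * g⁻¹) * g⁻¹⁻¹ = a := by group
  rw [e] at h
  intro x hx
  refine ⟨g⁻¹ * x * g, h ⟨x, hx, ?_⟩, ?_⟩
  · simp
  · simp only [MulEquiv.toMonoidHom_eq_coe, MonoidHom.coe_coe, MulAut.conj_apply]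
    group

section Core

variable (hcon : ∀ t : G, orderOf t = 2 → Cfsg.IsPConstrained 2 ↥(Subgroup.centralizer ({t} : Set G)))
include hcon

theorem balance {a b : G} (ha : orderOf a = 2) (hb : orderOf b = 2) (hab : a * b = b * a) :
    Y a ⊓ Subgroup.centralizer ({b} : Set G) ≤ Y b := by
  have : Fact (Nat.Prime 2) := ⟨Nat.prime_two⟩
  refine le_core_of_pConstrained (hcon b hb) (a := a) ?_ (zpowers_isPGroup ha) inf_le_right ?_ ?_ ?_
  · rw [Subgroup.mem_centralizer_singleton_iff]; exact hab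
  · exact inf_le_left.trans (cppc_le a)
  · intro x hx
    have h1 := centralizer_le_normalizer_cppc (p := 2) a hx.2
    have h2 : x ∈ Subgroup.normalizer ((Subgroup.centralizer ({b} : Set G) : Subgroup G) : Set G) :=
      Subgroup.le_normalizer hx.1
    rw [Subgroup.mem_normalizer_iff] at h1 h2 ⊢
    intro y
    rw [Subgroup.mem_inf, Subgroup.mem_inf, h1 y, h2 y]
  · exact Nat.Coprime.coprime_dvd_left (Subgroup.card_dvd_of_le inf_le_left) (cppc_coprime a)

/-- `z` with trivial core inverts the cores of the centralizers of the commuting involutions. -/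
theorem inverts {z a : G} (hz : orderOf z = 2) (ha : orderOf a = 2) (hza : z * a = a * z) (hYz : Y z = ⊥)
    {y : G} (hy : y ∈ Y a) : z * y * z⁻¹ = y⁻¹ := by
  -- injectivity of `y ↦ y⁻¹ (z y z⁻¹)`
  have hzn : z ∈ Subgroup.normalizer ((Y a : Subgroup G) : Set G) := centralizer_le_normalizer_cppc a (by
    rw [Subgroup.mem_centralizer_singleton_iff]; exact hza)
  have hzz : z * z = 1 := by
    have := pow_orderOf_eq_one z
    rwa [hz, pow_two] at this
  have hzi : z⁻¹ = z := inv_eq_of_mul_eq_one_left hzz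
  have hc : ∀ x ∈ Y a, z * x * z⁻¹ = x → x = 1 := by
    intro x hx hxz
    have h1 : x ∈ Y z := balance hcon ha hz hza.symm ⟨hx, Subgroup.mem_centralizer_singleton_iff.2
      (mul_inv_eq_iff_eq_mul.1 hxz).symm⟩
    rwa [hYz, Subgroup.mem_bot] at h1
  let φ : Y a → Y a := fun x => ⟨(x : G)⁻¹ * (z * x * z⁻¹), mul_mem (inv_mem x.2)
    ((Subgroup.mem_normalizer_iff.1 hzn x).1 x.2)⟩
  have hφ : Function.Injective φ := by
    intro x x' hxx
    have h1 : (x : G)⁻¹ * (z * x * z⁻¹) = (x' : G)⁻¹ * (z * x' * z⁻¹) := congrArg Subtype.val hxx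
    have h2 : z * ((x' : G) * (x : G)⁻¹) * z⁻¹ = (x' : G) * (x : G)⁻¹ := by
      have h3 : z * (x : G) * z⁻¹ = x * ((x' : G)⁻¹ * (z * x' * z⁻¹)) := by rw [← h1]; group
      calc z * ((x' : G) * (x : G)⁻¹) * z⁻¹ = (z * x' * z⁻¹) * (z * x * z⁻¹)⁻¹ := by group
        _ = (z * x' * z⁻¹) * (x * ((x' : G)⁻¹ * (z * x' * z⁻¹)))⁻¹ := by rw [h3]
        _ = (x' : G) * (x : G)⁻¹ := by group
    have h4 := hc _ (mul_mem x'.2 (inv_mem x.2)) h2
    rw [mul_inv_eq_one] at h4
    exact Subtype.ext h4.symm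
  obtain ⟨w, hw⟩ := (Finite.injective_iff_surjective.1 hφ) ⟨y, hy⟩
  have hw' : (w : G)⁻¹ * (z * w * z⁻¹) = y := congrArg Subtype.val hw
  rw [← hw', hzi]
  calc z * ((w : G)⁻¹ * (z * w * z)) * z = z * (w : G)⁻¹ * z * w * (z * z) := by group
    _ = z * (w : G)⁻¹ * z * w := by rw [hzz, mul_one]
    _ = z⁻¹ * (w : G)⁻¹ * z⁻¹ * w := by rw [hzi]
    _ = ((w : G)⁻¹ * (z * w * z))⁻¹ := by group

theorem Y_comm {z a : G} (hz : orderOf z = 2) (ha : orderOf a = 2) (hza : z * a = a * z) (hYz : Y z = ⊥)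
    {x y : G} (hx : x ∈ Y a) (hy : y ∈ Y a) : x * y = y * x := by
  have h1 := inverts hcon hz ha hza hYz hx
  have h2 := inverts hcon hz ha hza hYz hy
  have h3 := inverts hcon hz ha hza hYz (mul_mem hx hy)
  have h4 : z * (x * y) * z⁻¹ = (z * x * z⁻¹) * (z * y * z⁻¹) := by group
  rw [h1, h2, h3] at h4
  rw [← inv_inj, h4, mul_inv_rev]

/-- the cores of the centralizers of the involutions of a normal elementary abelian subgroup of order at least 8. -/
theorem Y_eq_bot_of_mem (S : Sylow 2 G)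
    (hinv : ∀ X : Subgroup G, Odd (Nat.card ↥X) → (S : Subgroup G) ≤ Subgroup.normalizer (X : Set G) → X = ⊥)
    {A : Subgroup G} (hA : Cfsg.IsElementaryAbelian 2 A) (hA8 : 2 ^ 3 ≤ Nat.card A)
    (hSA : (S : Subgroup G) ≤ Subgroup.normalizer (A : Set G)) {z : G} (hz : orderOf z = 2) (hzA : z ∈ A)
    (hzS : ∀ s ∈ (S : Subgroup G), s * z = z * s) {a : G} (ha : a ∈ A) (ha1 : a ≠ 1) : Y a = ⊥ := by
  have : Fact (Nat.Prime 2) := ⟨Nat.prime_two⟩
  have hAc : ∀ a ∈ A, ∀ b ∈ A, a * b = b * a := fun a ha b hb => SigF.elem_comm hA ha hb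
  have hAo : ∀ a ∈ A, a ≠ 1 → orderOf a = 2 := by
    intro a ha ha1
    exact orderOf_eq_prime (hA.2 a ha) ha1
  have hYz : Y z = ⊥ := by
    apply hinv
    · exact Nat.coprime_two_right.1 (cppc_coprime z)
    · refine le_trans ?_ (centralizer_le_normalizer_cppc z)
      intro s hs
      rw [Subgroup.mem_centralizer_singleton_iff]
      exact hzS s hs
  have hcomm : ∀ a ∈ A, a ≠ 1 → ∀ b ∈ A, b ≠ 1 → ∀ x ∈ Y a, ∀ y ∈ Y b, x * y = y * x := by
    intro a ha ha1 b hb hb1
    have hAa : A ≤ Subgroup.normalizer ((Y a : Subgroup G) : Set G) := cppc_normal' (fun c hc => by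
      rw [Subgroup.mem_centralizer_singleton_iff]; exact hAc c hc a ha)
    have hAb : A ≤ Subgroup.normalizer ((Y b : Subgroup G) : Set G) := cppc_normal' (fun c hc => by
      rw [Subgroup.mem_centralizer_singleton_iff]; exact hAc c hc b hb)
    have h1 : Y a ⊓ Subgroup.centralizer ((Y b : Subgroup G) : Set G) = Y a := by
      refine SigF.eq_of_hyperplane_fixed_le hA (cppc_not_dvd a) hAa inf_le_left ?_
      intro B hBA hBi x hx
      refine ⟨hx.1, Subgroup.mem_centralizer_iff.2 ?_⟩
      have h2 : Y b ⊓ Subgroup.centralizer ({x} : Set G) = Y b := by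
        refine SigF.eq_of_hyperplane_fixed_le hA (cppc_not_dvd b) hAb inf_le_left ?_
        intro C hCA hCi y hy
        refine ⟨hy.1, Subgroup.mem_centralizer_singleton_iff.2 ?_⟩
        obtain ⟨c, hc, hc1⟩ := SigF.exists_mem_inf_of_relIndex hA8 hBA hBi hCi
        have hco := hAo c (hBA hc.1) hc1
        have hxc : x ∈ Y c := balance hcon (hAo a ha ha1) hco (hAc a ha c (hBA hc.1)) ⟨hx.1, Subgroup.mem_centralizer_singleton_iff.2
          (Subgroup.mem_centralizer_iff.1 hx.2 c hc.1).symm⟩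
        have hyc : y ∈ Y c := balance hcon (hAo b hb hb1) hco (hAc b hb c (hBA hc.1)) ⟨hy.1, Subgroup.mem_centralizer_singleton_iff.2
          (Subgroup.mem_centralizer_iff.1 hy.2 c hc.2).symm⟩
        exact Y_comm hcon hz hco (hAc z hzA c (hBA hc.1)) hYz hyc hxc
      intro y hy
      have h3 : y ∈ Y b ⊓ Subgroup.centralizer ({x} : Set G) := by rw [h2]; exact hy
      exact Subgroup.mem_centralizer_singleton_iff.1 h3.2
    intro x hx y hy
    have h2 : x ∈ Y a ⊓ Subgroup.centralizer ((Y b : Subgroup G) : Set G) := by rw [h1]; exact hx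
    exact (Subgroup.mem_centralizer_iff.1 h2.2 y hy).symm
  -- the group generated
  set T : Set G := {x : G | ∃ a ∈ A, a ≠ 1 ∧ x ∈ Y a} with hT
  set W := Subgroup.closure T with hW
  have hWodd : Odd (Nat.card W) := by
    have hcommT : ∀ x ∈ T, ∀ y ∈ T, x * y = y * x := by
      rintro x ⟨a, ha, ha1, hx⟩ y ⟨b, hb, hb1, hy⟩
      exact hcomm a ha ha1 b hb hb1 x hx y hy
    have hWc : ∀ x ∈ W, ∀ y ∈ W, x * y = y * x := by
      have h1 : W ≤ Subgroup.centralizer (T : Set G) := by
        rw [hW, Subgroup.closure_le]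
        intro x hx
        rw [SetLike.mem_coe, Subgroup.mem_centralizer_iff]
        intro y hy
        exact hcommT y hy x hx
      have h2 : W ≤ Subgroup.centralizer (W : Set G) := by
        rw [hW, Subgroup.centralizer_closure, ← hW]; exact h1
      intro x hx y hy
      exact Subgroup.mem_centralizer_iff.1 (h2 hy) x hx
    have hWo : ∀ x ∈ W, Odd (orderOf x) := by
      intro x hx
      rw [hW] at hx
      induction hx using Subgroup.closure_induction with
      | mem x hx =>
        obtain ⟨a, ha, ha1, hx⟩ := hx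
        have h1 : orderOf x ∣ Nat.card (Y a) := by
          have := orderOf_dvd_natCard (⟨x, hx⟩ : Y a)
          rwa [Subgroup.orderOf_mk] at this
        exact (Nat.coprime_two_right.1 (cppc_coprime a)).of_dvd_nat h1
      | one => rw [orderOf_one]; exact odd_one
      | mul x y hx hy h1 h2 =>
        have h3 : Commute x y := hWc x hx y hy
        exact (h1.mul h2).of_dvd_nat h3.orderOf_mul_dvd_mul_orderOf
      | inv x hx h1 => rw [orderOf_inv]; exact h1
    rw [← Nat.not_even_iff_odd]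
    intro hev
    obtain ⟨w, hw⟩ := exists_prime_orderOf_dvd_card' 2 (G := W) (even_iff_two_dvd.1 hev)
    have h1 := hWo w w.2
    rw [Subgroup.orderOf_coe, hw] at h1
    exact absurd h1 (by decide)
  have hWS : (S : Subgroup G) ≤ Subgroup.normalizer (W : Set G) := by
    have hst : ∀ s ∈ (S : Subgroup G), ∀ x ∈ W, s * x * s⁻¹ ∈ W := by
      intro s hs x hx
      have h1 : W ≤ W.comap (MulAut.conj s).toMonoidHom := by
        conv_lhs => rw [hW]
        rw [Subgroup.closure_le]
        rintro y ⟨a, ha, ha1, hy⟩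
        rw [SetLike.mem_coe, Subgroup.mem_comap]
        apply Subgroup.subset_closure
        refine ⟨s * a * s⁻¹, (Subgroup.mem_normalizer_iff.1 (hSA hs) a).1 ha, ?_, ?_⟩
        · intro h
          apply ha1
          rw [mul_inv_eq_one, mul_eq_left] at h
          exact h
        · rw [conj_Y]
          exact ⟨y, hy, rfl⟩
      exact h1 hx
    intro s hs
    rw [Subgroup.mem_normalizer_iff]
    intro x
    refine ⟨hst s hs x, fun h => ?_⟩
    have := hst s⁻¹ (inv_mem hs) _ h
    have e : s⁻¹ * (s * x * s⁻¹) * s⁻¹⁻¹ = x := by group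
    rwa [e] at this
  have hWb := hinv W hWodd hWS
  rw [eq_bot_iff, ← hWb]
  intro x hx
  exact Subgroup.subset_closure ⟨a, ha, ha1, hx⟩

/-- an involution normalizing an elementary abelian group of order at least 8 centralizes a four-group of it. -/
theorem four_le_card_centralizer {A : Subgroup G} (hA : Cfsg.IsElementaryAbelian 2 A) (hA8 : 2 ^ 3 ≤ Nat.card A)
    {t : G} (ht : orderOf t = 2) (htA : t ∈ Subgroup.normalizer (A : Set G)) :
    2 ^ 2 ≤ Nat.card ↥(A ⊓ Subgroup.centralizer ({t} : Set G)) := by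
  have : Fact (Nat.Prime 2) := ⟨Nat.prime_two⟩
  have hAc : ∀ a ∈ A, ∀ b ∈ A, a * b = b * a := fun a ha b hb => SigF.elem_comm hA ha hb
  have htt : t * t = 1 := by
    have := pow_orderOf_eq_one t
    rwa [ht, pow_two] at this
  have hti : t⁻¹ = t := inv_eq_of_mul_eq_one_left htt
  have hst : ∀ a ∈ A, t * a * t⁻¹ ∈ A := fun a ha => (Subgroup.mem_normalizer_iff.1 htA a).1 ha
  have haa : ∀ a ∈ A, a * a = 1 := fun a ha => by rw [← pow_two]; exact hA.2 a ha
  let φ : A →* A :=
    { toFun := fun a => ⟨(a : G) * (t * a * t⁻¹), mul_mem a.2 (hst a a.2)⟩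
      map_one' := by
        apply Subtype.ext
        change (1 : G) * (t * 1 * t⁻¹) = 1
        group
      map_mul' := by
        intro a b
        apply Subtype.ext
        change (a : G) * b * (t * (a * b) * t⁻¹) = (a : G) * (t * a * t⁻¹) * (b * (t * b * t⁻¹))
        have h1 := hAc (t * a * t⁻¹) (hst a a.2) b b.2
        calc (a : G) * b * (t * (a * b) * t⁻¹) = (a : G) * (b * (t * a * t⁻¹)) * (t * b * t⁻¹) := by group
          _ = (a : G) * ((t * a * t⁻¹) * b) * (t * b * t⁻¹) := by rw [h1]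
          _ = (a : G) * (t * a * t⁻¹) * (b * (t * b * t⁻¹)) := by group }
  set C := A ⊓ Subgroup.centralizer ({t} : Set G) with hC
  have hk : φ.ker.map A.subtype ≤ C := by
    rintro _ ⟨a, ha, rfl⟩
    refine ⟨a.2, Subgroup.mem_centralizer_singleton_iff.2 ?_⟩
    have h1 : (a : G) * (t * a * t⁻¹) = 1 := congrArg Subtype.val (MonoidHom.mem_ker.1 ha)
    have h2 : (a : G) = t * a * t⁻¹ := by
      calc (a : G) = (a : G) * ((a : G) * (t * a * t⁻¹)) := by rw [h1, mul_one]
        _ = ((a : G) * a) * (t * a * t⁻¹) := by group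
        _ = t * a * t⁻¹ := by rw [haa a a.2, one_mul]
    change (a : G) * t = t * a
    conv_lhs => rw [h2]
    group
  have hr : φ.range.map A.subtype ≤ C := by
    rintro _ ⟨_, ⟨a, rfl⟩, rfl⟩
    refine ⟨(φ a).2, Subgroup.mem_centralizer_singleton_iff.2 ?_⟩
    change (a : G) * (t * a * t⁻¹) * t = t * ((a : G) * (t * a * t⁻¹))
    have h1 := hAc (t * a * t⁻¹) (hst a a.2) a a.2
    calc (a : G) * (t * a * t⁻¹) * t = ((t * a * t⁻¹) * a) * t := by rw [h1]
      _ = t * (a * (t⁻¹ * a * t)) := by group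
      _ = t * (a * (t * a * t⁻¹)) := by rw [hti]
  have h1 := Subgroup.card_mul_index φ.ker
  rw [Subgroup.index_ker] at h1
  have h2 : Nat.card φ.ker ≤ Nat.card C := by
    rw [← Subgroup.card_map_of_injective A.subtype_injective]
    exact Nat.le_of_dvd Nat.card_pos (Subgroup.card_dvd_of_le hk)
  have h3 : Nat.card φ.range ≤ Nat.card C := by
    have h5 : Nat.card φ.range = Nat.card (φ.range.map A.subtype) :=
      Nat.card_congr (φ.range.equivMapOfInjective A.subtype A.subtype_injective).toEquiv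
    rw [h5]
    exact Nat.le_of_dvd Nat.card_pos (Subgroup.card_dvd_of_le hr)
  have h4 : 2 ^ 3 ≤ Nat.card C * Nat.card C := by
    calc 2 ^ 3 ≤ Nat.card A := hA8
      _ = _ := h1.symm
      _ ≤ _ := Nat.mul_le_mul h2 h3
  have hCp : IsPGroup 2 C := (SigF.isPGroup_of_elem hA).to_le inf_le_left
  obtain ⟨k, hk⟩ := IsPGroup.iff_card.1 hCp
  rw [hk] at h4 ⊢
  apply Nat.pow_le_pow_right (by norm_num)
  by_contra hlt
  have h5 : k ≤ 1 := by omega
  have h6 : 2 ^ k ≤ 2 ^ 1 := Nat.pow_le_pow_right (by norm_num) h5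
  have h7 := Nat.mul_le_mul h6 h6
  omega

/-- all cores of involution centralizers are trivial. -/
theorem Y_eq_bot (S : Sylow 2 G)
    (hinv : ∀ X : Subgroup G, Odd (Nat.card ↥X) → (S : Subgroup G) ≤ Subgroup.normalizer (X : Set G) → X = ⊥)
    {A : Subgroup G} (hA : Cfsg.IsElementaryAbelian 2 A) (hA8 : 2 ^ 3 ≤ Nat.card A)
    (hSA : (S : Subgroup G) ≤ Subgroup.normalizer (A : Set G)) {z : G} (hz : orderOf z = 2) (hzA : z ∈ A)
    (hzS : ∀ s ∈ (S : Subgroup G), s * z = z * s) {t : G} (ht : orderOf t = 2) : Y t = ⊥ := by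
  have : Fact (Nat.Prime 2) := ⟨Nat.prime_two⟩
  have hAo : ∀ a ∈ A, a ≠ 1 → orderOf a = 2 := by
    intro a ha ha1
    exact orderOf_eq_prime (hA.2 a ha) ha1
  -- the case `t ∈ S`
  have hS : ∀ t : G, orderOf t = 2 → t ∈ (S : Subgroup G) → Y t = ⊥ := by
    intro t ht htS
    have htA := hSA htS
    have h1 := four_le_card_centralizer hcon hA hA8 ht htA
    have hE : Cfsg.IsElementaryAbelian 2 (A ⊓ Subgroup.centralizer ({t} : Set G) : Subgroup G) := by
      refine ⟨⟨⟨?_⟩⟩, fun a ha => hA.2 a ha.1⟩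
      rintro ⟨x, hx⟩ ⟨y, hy⟩
      exact Subtype.ext (SigF.elem_comm hA hx.1 hy.1)
    symm
    refine SigF.eq_of_fixed_le hE h1 (cppc_not_dvd t) (cppc_normal' inf_le_right) bot_le ?_
    intro a ha ha1
    rw [← Y_eq_bot_of_mem hcon S hinv hA hA8 hSA hz hzA hzS ha.1 ha1]
    exact balance hcon ht (hAo a ha.1 ha1) (Subgroup.mem_centralizer_singleton_iff.1 ha.2).symm
  obtain ⟨T, hT⟩ := (zpowers_isPGroup ht).exists_le_sylow
  obtain ⟨g, hg⟩ := MulAction.exists_smul_eq G T S
  have h1 : g * t * g⁻¹ ∈ (S : Subgroup G) := by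
    rw [← hg]
    change _ ∈ MulAut.conj g • (T : Subgroup G)
    rw [Subgroup.mem_pointwise_smul_iff_inv_smul_mem]
    have e : (MulAut.conj g)⁻¹ • (g * t * g⁻¹) = t := by
      rw [← map_inv]
      change g⁻¹ * (g * t * g⁻¹) * g⁻¹⁻¹ = t
      group
    rw [e]
    exact hT (Subgroup.mem_zpowers t)
  have h2 := hS (g * t * g⁻¹) (by rw [H4.orderOf_conj', ht]) h1
  rw [conj_Y, Subgroup.map_eq_bot_iff_of_injective _ (MulAut.conj g).injective] at h2
  exact h2

/-- all involution centralizers have characteristic 2. -/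
theorem charP_centralizer_inv (S : Sylow 2 G)
    (hinv : ∀ X : Subgroup G, Odd (Nat.card ↥X) → (S : Subgroup G) ≤ Subgroup.normalizer (X : Set G) → X = ⊥)
    {A : Subgroup G} (hA : Cfsg.IsElementaryAbelian 2 A) (hA8 : 2 ^ 3 ≤ Nat.card A)
    (hSA : (S : Subgroup G) ≤ Subgroup.normalizer (A : Set G)) {z : G} (hz : orderOf z = 2) (hzA : z ∈ A)
    (hzS : ∀ s ∈ (S : Subgroup G), s * z = z * s) {t : G} (ht : orderOf t = 2) :
    CharP 2 ↥(Subgroup.centralizer ({t} : Set G)) := by
  have : Fact (Nat.Prime 2) := ⟨Nat.prime_two⟩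
  have h1 := Y_eq_bot hcon S hinv hA hA8 hSA hz hzA hzS ht
  have h2 : Cfsg.pPrimeCore 2 ↥(Subgroup.centralizer ({t} : Set G)) = ⊥ := by
    rw [Y, Cfsg.centralizerPPrimeCore, Subgroup.map_eq_bot_iff_of_injective _ (Subgroup.subtype_injective _)] at h1
    exact h1
  exact (isPConstrained_iff_of_core_eq_bot h2).1 (hcon t ht)

end Core

end Cfsg.Agent.H11.EarlyCT
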