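import Mathlib
import Cfsg.Agent.H11.EarlyCT
import Cfsg.Agent.H63.PG

set_option autoImplicit false
open Cfsg
open scoped commutatorElement Pointwise

/-! Early characteristic 2 type: maximal 2-locals whose `O_2` has cyclic centre. -/

namespace Cfsg.Agent.H11.EarlyCT

open Cfsg.Agent.SigF.Bal1 H36.PConstr

universe u

theorem cyc_two_unique {C : Type u} [Group C] [Finite C] (hC : IsCyclic C) {x y : C} (hx : orderOf x = 2)
    (hy : orderOf y = 2) : x = y := by
  classical
  have := Fintype.ofFinite C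
  by_contra hxy
  have h1 := IsCyclic.card_pow_eq_one_le (α := C) (n := 2) (by norm_num)
  have h2 : ({1, x, y} : Finset C) ⊆ Finset.univ.filter (fun a : C => a ^ 2 = 1) := by
    intro a ha
    simp only [Finset.mem_insert, Finset.mem_singleton] at ha
    simp only [Finset.mem_filter, Finset.mem_univ, true_and]
    rcases ha with rfl | rfl | rfl
    · exact one_pow 2
    · rw [← hx]; exact pow_orderOf_eq_one _
    · rw [← hy]; exact pow_orderOf_eq_one _
  have hx1 : x ≠ 1 := by rintro rfl; rw [orderOf_one] at hx; omega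
  have hy1 : y ≠ 1 := by rintro rfl; rw [orderOf_one] at hy; omega
  have h3 : ({1, x, y} : Finset C).card = 3 := by
    rw [Finset.card_eq_three]
    exact ⟨1, x, y, hx1.symm, hy1.symm, hxy, rfl⟩
  have h4 := Finset.card_le_card h2
  omega

variable {G : Type u} [Group G] [Finite G]

/-- a maximal 2-local of characteristic 2 type with cyclic `Z(O_2(M))` is the centralizer of an involution. -/
theorem maximal_eq_centralizer (hchar : ∀ t : G, orderOf t = 2 → CharP 2 ↥(Subgroup.centralizer ({t} : Set G)))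
    {M : Subgroup G} (hM : Cfsg.IsMaximalTwoLocal M) (hcyc : IsCyclic ↥(Subgroup.center ↥(Cfsg.pCore 2 ↥M))) :
    ∃ x : G, orderOf x = 2 ∧ M = Subgroup.centralizer ({x} : Set G) ∧ x ∈ (Cfsg.pCore 2 ↥M).map M.subtype ∧
      ∀ w : G, orderOf w = 2 → w ∈ M → (∀ q ∈ (Cfsg.pCore 2 ↥M).map M.subtype, q * w = w * q) → w = x := by
  have : Fact (Nat.Prime 2) := ⟨Nat.prime_two⟩
  obtain ⟨⟨T, hT, hT1, hMT⟩, hmax⟩ := hM
  have hTM : T ≤ M := by rw [hMT]; exact Subgroup.le_normalizer
  have hTO : T ≤ (Cfsg.pCore 2 ↥M).map M.subtype := H49.le_pCoreOf hTM (by rw [hMT]) hT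
  have hOp : IsPGroup 2 (Cfsg.pCore 2 ↥M) := Solv.pCore_isPGroup 2
  have hO1 : Nontrivial (Cfsg.pCore 2 ↥M) := by
    rw [Subgroup.nontrivial_iff_ne_bot]
    intro h
    apply hT1
    rw [h, Subgroup.map_bot] at hTO
    exact le_bot_iff.1 hTO
  have h1 : Nontrivial (Subgroup.center (Cfsg.pCore 2 ↥M)) := hOp.center_nontrivial
  have h2 : 2 ∣ Nat.card (Subgroup.center (Cfsg.pCore 2 ↥M)) := by
    obtain ⟨n, hn0, hn⟩ := (IsPGroup.nontrivial_iff_card (hOp.to_subgroup _)).1 h1
    rw [hn]; exact dvd_pow_self 2 hn0.ne'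
  obtain ⟨c, hc⟩ := exists_prime_orderOf_dvd_card' 2 h2
  set x : G := (((c : Cfsg.pCore 2 ↥M) : M) : G) with hx
  have hxo : orderOf x = 2 := by
    rw [hx, Subgroup.orderOf_coe, Subgroup.orderOf_coe, Subgroup.orderOf_coe, hc]
  -- uniqueness
  have huniq : ∀ w : G, orderOf w = 2 → w ∈ (Cfsg.pCore 2 ↥M).map M.subtype →
      (∀ q ∈ (Cfsg.pCore 2 ↥M).map M.subtype, q * w = w * q) → w = x := by
    rintro _ hw ⟨w, hwO, rfl⟩ hwc
    have hwcen : (⟨w, hwO⟩ : Cfsg.pCore 2 ↥M) ∈ Subgroup.center (Cfsg.pCore 2 ↥M) := by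
      rw [Subgroup.mem_center_iff]
      intro q
      apply Subtype.ext
      apply Subtype.ext
      exact hwc _ ⟨q, q.2, rfl⟩
    have h3 : (⟨⟨w, hwO⟩, hwcen⟩ : Subgroup.center (Cfsg.pCore 2 ↥M)) = c := by
      refine cyc_two_unique hcyc ?_ hc
      rw [← Subgroup.orderOf_coe, ← Subgroup.orderOf_coe, ← Subgroup.orderOf_coe]
      exact hw
    rw [hx, ← h3]
    rfl
  have hxO : x ∈ (Cfsg.pCore 2 ↥M).map M.subtype := ⟨(c : Cfsg.pCore 2 ↥M), (c : Cfsg.pCore 2 ↥M).2, rfl⟩
  have hxc : ∀ q ∈ (Cfsg.pCore 2 ↥M).map M.subtype, q * x = x * q := by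
    rintro _ ⟨q, hq, rfl⟩
    have := Subgroup.mem_center_iff.1 c.2 ⟨q, hq⟩
    exact congrArg (fun y => ((y : M) : G)) (congrArg Subtype.val this)
  have hnO : M ≤ Subgroup.normalizer (((Cfsg.pCore 2 ↥M).map M.subtype : Subgroup G) : Set G) :=
    Subgroup.le_normalizer.trans (H49.normalizer_le_normalizer_map_of_char M _)
  have hMx : M ≤ Subgroup.centralizer ({x} : Set G) := by
    intro m hm
    rw [Subgroup.mem_centralizer_singleton_iff]
    have h4 : m * x * m⁻¹ = x := by
      apply huniq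
      · rw [H4.orderOf_conj', hxo]
      · exact (Subgroup.mem_normalizer_iff.1 (hnO hm) x).1 hxO
      · intro q hq
        have h5 : m⁻¹ * q * m ∈ (Cfsg.pCore 2 ↥M).map M.subtype := by
          have := (Subgroup.mem_normalizer_iff.1 (hnO (inv_mem hm)) q).1 hq
          rwa [inv_inv] at this
        have h6 := hxc _ h5
        calc q * (m * x * m⁻¹) = m * ((m⁻¹ * q * m) * x) * m⁻¹ := by group
          _ = m * (x * (m⁻¹ * q * m)) * m⁻¹ := by rw [h6]
          _ = m * x * m⁻¹ * q := by group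
    rw [mul_inv_eq_iff_eq_mul] at h4
    exact h4
  have hMeq : M = Subgroup.centralizer ({x} : Set G) := by
    refine (hmax _ ⟨Subgroup.zpowers x, zpowers_isPGroup hxo, zpowers_ne_bot hxo, ?_⟩ hMx).symm
    rw [normalizer_zpowers hxo]
  refine ⟨x, hxo, hMeq, hxO, fun w hw hwM hwc => huniq w hw ?_ hwc⟩
  have hMc : CharP 2 ↥M := by rw [hMeq]; exact hchar x hxo
  have h7 : (⟨w, hwM⟩ : M) ∈ Cfsg.pCore 2 ↥M := by
    apply hMc
    rw [Subgroup.mem_centralizer_iff]
    intro q hq
    apply Subtype.ext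
    exact hwc _ ⟨q, hq, rfl⟩
  exact ⟨_, h7, rfl⟩

theorem exists_maximal {N : Subgroup G} (hN : Cfsg.IsTwoLocal N) : ∃ M : Subgroup G, Cfsg.IsMaximalTwoLocal M ∧ N ≤ M := by
  have hfin : {M : Subgroup G | Cfsg.IsTwoLocal M}.Finite := Set.toFinite _
  obtain ⟨M, hTM, hM⟩ := hfin.exists_le_maximal (a := N) hN
  exact ⟨M, ⟨hM.prop, fun N hN hMN => le_antisymm (hM.le_of_ge hN hMN) hMN⟩, hTM⟩

/-- a 2-subgroup of `M` that is not Sylow in the 2-group `P` has a strictly larger normalizer in `P`. -/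
theorem exists_mem_normalizer {P T : Subgroup G} (hP : IsPGroup 2 P) (hTP : T ≤ P) (hne : T ≠ P) :
    ∃ x ∈ P, x ∈ Subgroup.normalizer (T : Set G) ∧ x ∉ T := by
  have : Fact (Nat.Prime 2) := ⟨Nat.prime_two⟩
  exact BG.exists_mem_normalizer_of_nilpotent hP.isNilpotent hTP hne

/-- the exponent of 2 in the order of the intersection. -/
noncomputable def tp (X : Subgroup G) : ℕ := (Nat.card X).factorization 2

theorem le_tp {X T : Subgroup G} (hTX : T ≤ X) {k : ℕ} (hk : Nat.card T = 2 ^ k) : k ≤ tp X := by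
  have h1 : 2 ^ k ∣ Nat.card X := by rw [← hk]; exact Subgroup.card_dvd_of_le hTX
  exact (Nat.prime_two.pow_dvd_iff_le_factorization Nat.card_pos.ne').1 h1

theorem exists_sylow_of (X : Subgroup G) : ∃ T : Subgroup G, IsPGroup 2 T ∧ T ≤ X ∧ Nat.card T = 2 ^ tp X ∧
    ∀ T' : Subgroup G, IsPGroup 2 T' → T ≤ T' → T' ≤ X → T' = T := by
  have : Fact (Nat.Prime 2) := ⟨Nat.prime_two⟩
  obtain ⟨P⟩ : Nonempty (Sylow 2 X) := inferInstance
  refine ⟨(P : Subgroup X).map X.subtype, P.2.map _, Subgroup.map_subtype_le _, ?_, ?_⟩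
  · rw [Subgroup.card_map_of_injective X.subtype_injective]
    exact P.card_eq_multiplicity
  · intro T' hT' hTT' hT'X
    have h1 : (T'.subgroupOf X) = P := by
      apply P.3 hT'.comap_subtype
      intro x hx
      exact hTT' ⟨x, hx, rfl⟩
    rw [← h1, Subgroup.map_subgroupOf_eq_of_le hT'X]

/-- main step: every maximal 2-local other than `C(z)`, `z` a central involution of a Sylow group, meets `C(z)` in
a group of odd order. -/
theorem odd_inf (S : Sylow 2 G) {z : G} (hz : orderOf z = 2)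
    (hzS : ∀ s ∈ (S : Subgroup G), s * z = z * s)
    (hall : ∀ M : Subgroup G, Cfsg.IsMaximalTwoLocal M →
      ∃ x : G, orderOf x = 2 ∧ M = Subgroup.centralizer ({x} : Set G) ∧ x ∈ (Cfsg.pCore 2 ↥M).map M.subtype ∧
      ∀ w : G, orderOf w = 2 → w ∈ M → (∀ q ∈ (Cfsg.pCore 2 ↥M).map M.subtype, q * w = w * q) → w = x)
    {X : Subgroup G} (hX : Cfsg.IsMaximalTwoLocal X) (hXz : X ≠ Subgroup.centralizer ({z} : Set G)) :
    tp (X ⊓ Subgroup.centralizer ({z} : Set G)) = 0 := by
  classical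
  have : Fact (Nat.Prime 2) := ⟨Nat.prime_two⟩
  -- maximal 2-locals containing a Sylow group centralized by `z`
  have hOle : ∀ (M T : Subgroup G), IsPGroup 2 T → T ≤ M → (∀ T' : Subgroup G, IsPGroup 2 T' → T ≤ T' → T' ≤ M → T' = T) →
      (Cfsg.pCore 2 ↥M).map M.subtype ≤ T := by
    intro M T hT hTM hmax
    have hn : T ≤ Subgroup.normalizer (((Cfsg.pCore 2 ↥M).map M.subtype : Subgroup G) : Set G) :=
      hTM.trans (Subgroup.le_normalizer.trans (H49.normalizer_le_normalizer_map_of_char M _))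
    have hOp : IsPGroup 2 ((Cfsg.pCore 2 ↥M).map M.subtype) := (Solv.pCore_isPGroup 2).map _
    have h1 : IsPGroup 2 ↥((Cfsg.pCore 2 ↥M).map M.subtype ⊔ T) := hOp.to_sup_of_normal_left' hT hn
    have h2 := hmax _ h1 le_sup_right (sup_le (Subgroup.map_subtype_le _) hTM)
    rw [← h2]
    exact le_sup_left
  have hkey : ∀ (M T : Subgroup G), Cfsg.IsMaximalTwoLocal M → IsPGroup 2 T → T ≤ M →
      (∀ T' : Subgroup G, IsPGroup 2 T' → T ≤ T' → T' ≤ M → T' = T) → z ∈ M →
      (∀ t ∈ T, t * z = z * t) → M = Subgroup.centralizer ({z} : Set G) := by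
    intro M T hM hT hTM hmax hzM hzT
    obtain ⟨x, hx, hMx, hxO, huniq⟩ := hall M hM
    have h1 := huniq z hz hzM (fun q hq => hzT q (hOle M T hT hTM hmax hq))
    rw [hMx, ← h1]
  by_contra hne
  -- choose a counterexample with maximal intersection
  set C := Subgroup.centralizer ({z} : Set G) with hC
  obtain ⟨X, ⟨hX, hXz, hX0⟩, hXmax⟩ := Set.exists_max_image
    {X : Subgroup G | Cfsg.IsMaximalTwoLocal X ∧ X ≠ C ∧ tp (X ⊓ C) ≠ 0} (fun X => tp (X ⊓ C)) (Set.toFinite _)
    ⟨X, hX, hXz, hne⟩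
  obtain ⟨T, hT, hTX, hTc, hTmax⟩ := exists_sylow_of (X ⊓ C)
  -- `T ≤ S^g`, `g ∈ C`
  have hSC : (S : Subgroup G) ≤ C := by
    intro s hs
    rw [hC, Subgroup.mem_centralizer_singleton_iff]
    exact hzS s hs
  obtain ⟨P, hP, hTP, hPC, hPcard⟩ : ∃ P : Subgroup G, IsPGroup 2 P ∧ T ≤ P ∧ P ≤ C ∧ Nat.card P = Nat.card (S : Subgroup G) := by
    obtain ⟨Q, hQ⟩ := (hT.comap_subtype (K := C) : IsPGroup 2 (T.subgroupOf C)).exists_le_sylow
    refine ⟨(Q : Subgroup C).map C.subtype, Q.2.map _, ?_, Subgroup.map_subtype_le _, ?_⟩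
    · rw [← Subgroup.map_subgroupOf_eq_of_le (hTX.trans inf_le_right)]
      exact Subgroup.map_mono hQ
    · rw [Subgroup.card_map_of_injective C.subtype_injective, Q.card_eq_multiplicity, S.card_eq_multiplicity]
      congr 1
      apply le_antisymm
      · exact (Nat.factorization_le_iff_dvd Nat.card_pos.ne' Nat.card_pos.ne').2 (Subgroup.card_subgroup_dvd_card C) 2
      · have h3 := Subgroup.card_dvd_of_le hSC
        rw [S.card_eq_multiplicity] at h3
        exact (Nat.prime_two.pow_dvd_iff_le_factorization Nat.card_pos.ne').1 h3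
  have hT1 : T ≠ ⊥ := by
    rintro rfl
    rw [Subgroup.card_bot] at hTc
    have := hTc.symm
    rw [Nat.pow_eq_one] at this
    omega
  have hTne : T ≠ P := by
    rintro rfl
    -- `X` contains a Sylow group centralized by `z`
    have h4 : ∀ T' : Subgroup G, IsPGroup 2 T' → T ≤ T' → T' ≤ X → T' = T := by
      intro T' hT' hTT' _
      symm
      apply Subgroup.eq_of_le_of_card_ge hTT'
      rw [hPcard]
      obtain ⟨Q, hQ⟩ := hT'.exists_le_sylow
      rw [S.card_eq_multiplicity, ← Q.card_eq_multiplicity]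
      exact Nat.le_of_dvd Nat.card_pos (Subgroup.card_dvd_of_le hQ)
    have hzT : z ∈ T := by
      have h5 : z ∈ Subgroup.normalizer (T : Set G) := by
        apply Subgroup.centralizer_le_normalizer
        rw [Subgroup.mem_centralizer_iff]
        intro t ht
        exact Subgroup.mem_centralizer_singleton_iff.1 (hPC ht)
      have h6 : IsPGroup 2 ↥(T ⊔ Subgroup.zpowers z) := hT.to_sup_of_normal_left' (zpowers_isPGroup hz)
        (by rw [Subgroup.zpowers_le]; exact h5)
      have h7 : T ⊔ Subgroup.zpowers z = T := by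
        symm
        apply Subgroup.eq_of_le_of_card_ge le_sup_left
        rw [hPcard]
        obtain ⟨Q, hQ⟩ := h6.exists_le_sylow
        rw [S.card_eq_multiplicity, ← Q.card_eq_multiplicity]
        exact Nat.le_of_dvd Nat.card_pos (Subgroup.card_dvd_of_le hQ)
      rw [← h7]
      exact le_sup_right (a := T) (Subgroup.mem_zpowers z)
    apply hXz
    refine hkey X T hX hT (hTX.trans inf_le_left) h4 ((hTX.trans inf_le_left) hzT) ?_
    intro t ht
    exact Subgroup.mem_centralizer_singleton_iff.1 (hPC ht)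
  -- `N_G(T) ≤ C`
  obtain ⟨y, hyP, hyN, hyT⟩ := exists_mem_normalizer hP hTP hTne
  have hNT : Subgroup.normalizer (T : Set G) ≤ C := by
    obtain ⟨M, hM, hNM⟩ := exists_maximal (N := Subgroup.normalizer (T : Set G)) ⟨T, hT, hT1, rfl⟩
    by_contra hcon
    have hMC : M ≠ C := by
      rintro rfl
      exact hcon hNM
    -- bigger intersection
    have h8 : IsPGroup 2 ↥(P ⊓ Subgroup.normalizer (T : Set G) : Subgroup G) := hP.to_le inf_le_left
    obtain ⟨k, hk⟩ := IsPGroup.iff_card.1 h8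
    have h9 : k ≤ tp (M ⊓ C) := le_tp (le_inf (inf_le_right.trans hNM) (inf_le_left.trans hPC)) hk
    have h10 : tp (X ⊓ C) < k := by
      have h11 : T < P ⊓ Subgroup.normalizer (T : Set G) := by
        refine lt_of_le_of_ne (le_inf hTP Subgroup.le_normalizer) ?_
        intro h
        apply hyT
        rw [h]
        exact ⟨hyP, hyN⟩
      have h12 : Nat.card T < Nat.card ↥(P ⊓ Subgroup.normalizer (T : Set G) : Subgroup G) := by
        by_contra hlt
        push Not at hlt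
        exact h11.ne (Subgroup.eq_of_le_of_card_ge h11.le hlt)
      rw [hTc, hk] at h12
      exact (Nat.pow_lt_pow_iff_right (by norm_num)).1 h12
    have h13 : tp (M ⊓ C) ≤ tp (X ⊓ C) := hXmax M ⟨hM, hMC, by omega⟩
    omega
  -- `T` is a Sylow group of `X`
  have hTX' : ∀ T' : Subgroup G, IsPGroup 2 T' → T ≤ T' → T' ≤ X → T' = T := by
    intro T' hT' hTT' hT'X
    by_contra hne'
    obtain ⟨y, hyT', hyN, hyT⟩ := exists_mem_normalizer hT' hTT' (fun h => hne' h.symm)
    have h14 := hTmax (T' ⊓ Subgroup.normalizer (T : Set G)) (hT'.to_le inf_le_left) (le_inf hTT' Subgroup.le_normalizer)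
      (le_inf (inf_le_left.trans hT'X) (inf_le_right.trans hNT))
    apply hyT
    rw [← h14]
    exact ⟨hyT', hyN⟩
  obtain ⟨x, hx, hMx, hxO, huniq⟩ := hall X hX
  have hxT : x ∈ T := hOle X T hT (hTX.trans inf_le_left) hTX' hxO
  have hzX : z ∈ X := by
    rw [hMx, Subgroup.mem_centralizer_singleton_iff]
    exact (Subgroup.mem_centralizer_singleton_iff.1 ((hTX hxT).2)).symm
  exact hXz (hkey X T hX hT (hTX.trans inf_le_left) hTX' hzX
    (fun t ht => Subgroup.mem_centralizer_singleton_iff.1 (hTX ht).2))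

end Cfsg.Agent.H11.EarlyCT
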