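import Cfsg.Agent.S0204

/-!
# An involution commuting with a given one (helper11, for S3668)
-/

set_option autoImplicit false

namespace Cfsg.Agent.H11.L33Z

open Subgroup
open scoped Pointwise

theorem exists_invol {G : Type*} [Group G] [Finite G] [IsSimpleGroup G] (hna : ¬ IsMulCommutative G) {t : G}
    (ht : orderOf t = 2) (h16 : 16 ∣ Nat.card (Subgroup.centralizer ({t} : Set G)))
    (h32 : ¬ 32 ∣ Nat.card G) : ∃ s : G, s ≠ 1 ∧ s * s = 1 ∧ s ≠ t ∧ s * t = t * s := by
  classical
  have h2 : Fact (Nat.Prime 2) := ⟨Nat.prime_two⟩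
  have hcyc : ¬ IsCyclic G := by
    intro h
    exact hna h.isMulCommutative
  obtain ⟨E, hE⟩ := S0204.result hcyc
  -- a Sylow 2-subgroup in `C(t)`
  obtain ⟨Q, hQ⟩ := Sylow.exists_subgroup_card_pow_prime (G := centralizer ({t} : Set G)) 2 (n := 4)
    (by norm_num; exact h16)
  have hQm : Nat.card (Q.map (centralizer ({t} : Set G)).subtype) = 2 ^ 4 := by
    rw [← hQ]
    exact (Nat.card_congr (Q.equivMapOfInjective _ (centralizer ({t} : Set G)).subtype_injective).toEquiv).symm
  have hQp : IsPGroup 2 (Q.map (centralizer ({t} : Set G)).subtype) := IsPGroup.of_card hQm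
  obtain ⟨S, hS⟩ := hQp.exists_le_sylow
  have hScard : Nat.card (S : Subgroup G) ≤ 2 ^ 4 := by
    obtain ⟨k, hk⟩ := (IsPGroup.iff_card).1 S.isPGroup'
    rw [hk]
    apply Nat.pow_le_pow_right (by norm_num)
    by_contra hlt
    apply h32
    have h3 : 2 ^ 5 ∣ Nat.card (S : Subgroup G) := by rw [hk]; exact pow_dvd_pow 2 (by omega)
    have h4 := h3.trans (card_subgroup_dvd_card (S : Subgroup G))
    norm_num at h4
    exact h4
  have hSQ : Q.map (centralizer ({t} : Set G)).subtype = (S : Subgroup G) :=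
    Subgroup.eq_of_le_of_card_ge hS (by rw [hQm]; exact hScard)
  have hSC : ∀ x ∈ (S : Subgroup G), x * t = t * x := by
    intro x hx
    rw [← hSQ] at hx
    obtain ⟨y, -, rfl⟩ := hx
    exact mem_centralizer_singleton_iff.1 y.2
  -- conjugate the four-group into `S`
  have hEp : IsPGroup 2 E := by
    apply IsPGroup.of_card (n := 2)
    rw [hE.card_four]; norm_num
  obtain ⟨P, hP⟩ := hEp.exists_le_sylow
  obtain ⟨g, hg⟩ := MulAction.exists_smul_eq G P S
  have hconj : ∀ e ∈ E, g * e * g⁻¹ ∈ (S : Subgroup G) := by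
    intro e he
    have h3 : MulAut.conj g • e ∈ MulAut.conj g • (P : Subgroup G) :=
      Subgroup.smul_mem_pointwise_smul e (MulAut.conj g) (P : Subgroup G) (hP he)
    have h4 : ((g • P : Sylow 2 G) : Subgroup G) = MulAut.conj g • (P : Subgroup G) := rfl
    rw [← hg, h4]
    exact h3
  -- two different non-identity elements
  have hnt : ∃ e₁ e₂ : E, e₁ ≠ 1 ∧ e₂ ≠ 1 ∧ e₁ ≠ e₂ := by
    have hc : 2 < Nat.card E := by rw [hE.card_four]; norm_num
    have : Fintype E := Fintype.ofFinite E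
    rw [Nat.card_eq_fintype_card] at hc
    obtain ⟨a, b, c, hab, hac, hbc⟩ := Fintype.two_lt_card_iff.1 hc
    by_cases ha : a = 1
    · exact ⟨b, c, fun h => hab (ha.trans h.symm), fun h => hac (ha.trans h.symm), hbc⟩
    · by_cases hb : b = 1
      · exact ⟨a, c, ha, fun h => hbc (hb.trans h.symm), hac⟩
      · exact ⟨a, b, ha, hb, hab⟩
  obtain ⟨e₁, e₂, h1, h2', h12⟩ := hnt
  have key : ∀ e : E, e ≠ 1 → g * e * g⁻¹ ≠ t →
      ∃ s : G, s ≠ 1 ∧ s * s = 1 ∧ s ≠ t ∧ s * t = t * s := by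
    intro e he het
    refine ⟨g * e * g⁻¹, ?_, ?_, het, hSC _ (hconj e e.2)⟩
    · intro h
      apply he
      apply Subtype.ext
      have : (e : G) = g⁻¹ * (g * e * g⁻¹) * g := by group
      rw [this, h]; simp
    · have h3 : (e : G) * e = 1 := by
        have := hE.mul_self e
        exact congrArg Subtype.val this
      calc g * e * g⁻¹ * (g * e * g⁻¹) = g * (e * e) * g⁻¹ := by group
        _ = 1 := by rw [h3]; group
  by_cases h5 : g * (e₁ : G) * g⁻¹ = t
  · apply key e₂ h2'
    intro h6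
    apply h12
    apply Subtype.ext
    have : g * (e₁ : G) * g⁻¹ = g * (e₂ : G) * g⁻¹ := h5.trans h6.symm
    exact mul_left_cancel (mul_right_cancel this)
  · exact key e₁ h1 h5

end Cfsg.Agent.H11.L33Z
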